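import Cfsg.Agent.Lib.Helper15.BG12Defs3
import Cfsg.Agent.S0058

/-!
# B&G 12.7, piece T2 (helper2, for helper15's S1419 project)

The fixed points of `A` on `M_σ`: `A₀ = C_A(M_σ)` has order `p`, is not `Ω₁(Z(S))`, and every
other subgroup `X` of order `p` of `E` has `C_{M_σ}(X) = 1` and `C_G(X) ⊄ M`.
-/

set_option autoImplicit false
open Cfsg Cfsg.Agent.Lib.Helper32 Cfsg.Agent.Lib.Helper32.BG10 Cfsg.Agent.Lib.Helper3.BG12 Cfsg.Agent.Lib.Helper15.BG12
namespace Cfsg.Agent.Lib.Helper2.BG12x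
universe u
variable {G : Type u} [Group G] [Finite G]

omit [Finite G] in
theorem centralizer_cj_eq (g : G) (X : Subgroup G) :
    Subgroup.centralizer ((cj g X : Subgroup G) : Set G) =
      cj g (Subgroup.centralizer (X : Set G)) := by
  ext y
  rw [mem_cj, Subgroup.mem_centralizer_iff, Subgroup.mem_centralizer_iff]
  constructor
  · intro h z hz
    have h1 : g * z * g⁻¹ ∈ cj g X := by
      rw [mem_cj]
      have e : g⁻¹ * (g * z * g⁻¹) * g = z := by group
      rw [e]; exact hz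
    have h2 := h _ h1
    calc z * (g⁻¹ * y * g) = g⁻¹ * (g * z * g⁻¹ * y) * g := by group
      _ = g⁻¹ * (y * (g * z * g⁻¹)) * g := by rw [h2]
      _ = g⁻¹ * y * g * z := by group
  · intro h z hz
    have hz' : g⁻¹ * z * g ∈ X := mem_cj.mp hz
    have h2 := h _ hz'
    calc z * y = g * ((g⁻¹ * z * g) * (g⁻¹ * y * g)) * g⁻¹ := by group
      _ = g * ((g⁻¹ * y * g) * (g⁻¹ * z * g)) * g⁻¹ := by rw [h2]
      _ = y * z := by group

omit [Finite G] in
theorem centralizer_zpowers_eq (a : G) :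
    Subgroup.centralizer ((Subgroup.zpowers a : Subgroup G) : Set G) =
      Subgroup.centralizer {a} := by
  ext y
  rw [Subgroup.mem_centralizer_iff, Subgroup.mem_centralizer_iff]
  constructor
  · intro h z hz
    rw [Set.mem_singleton_iff] at hz
    subst hz
    exact h _ (Subgroup.mem_zpowers z)
  · intro h z hz
    obtain ⟨k, rfl⟩ := Subgroup.mem_zpowers_iff.mp hz
    have h1 : Commute a y := h a (Set.mem_singleton a)
    exact (h1.zpow_left k).eq

theorem card_zpowers_of_pow {p : ℕ} [Fact p.Prime] {a : G} (ha : a ^ p = 1) (ha1 : a ≠ 1) :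
    Nat.card (Subgroup.zpowers a) = p := by
  rw [Nat.card_zpowers]
  exact orderOf_eq_prime ha ha1

theorem fix_points (hG : IsMinSimpleOddOrder G) (h16 : H16 G) (h17 : H17 G) (h18 : H18 G) {M E : Subgroup G} {p : ℕ} [Fact p.Prime] {A : Subgroup G} (h : Ctx7 M E p A)
      {S : Subgroup G} (hSp : IsPGroup p S) (hAS : A ≤ S) {x : G} (hxS : x ∈ S) (hxM : x ∉ M) (hxA : x ∈ Subgroup.normalizer (A : Set G))
      (hZA : omegaZ p S ≤ A) (hZ : Nat.card (omegaZ p S) = p)
      (htr : ∀ X Y : Subgroup G, X ≤ A → Nat.card X = p → X ≠ omegaZ p S → Y ≤ A → Nat.card Y = p → Y ≠ omegaZ p S → ∃ i : ℕ, Y = cj (x ^ i) X)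
      (hnb : sigmaCore M ≠ ⊥) :
      Nat.card ↥(A ⊓ Subgroup.centralizer (sigmaCore M : Set G)) = p ∧ A ⊓ Subgroup.centralizer (sigmaCore M : Set G) ≠ omegaZ p S ∧
      ∀ X : Subgroup G, X ≤ E → Nat.card X = p → X ≠ A ⊓ Subgroup.centralizer (sigmaCore M : Set G) →
        sigmaCore M ⊓ Subgroup.centralizer (X : Set G) = ⊥ ∧ ¬ Subgroup.centralizer (X : Set G) ≤ M := by
  classical
  have hp : p.Prime := Fact.out
  have hM := h.hM
  have hMsM : sigmaCore M ≤ M := Subgroup.map_subtype_le _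
  have hAM : A ≤ M := h.hAE.trans h.hE.1
  obtain ⟨-, h17b, -, h17d, h17e, -⟩ := h17 M hM p h.hp A ⟨hAM, h.hA, h.hA2⟩
  obtain ⟨⟨-, h18a⟩, -, h18c⟩ := h18 M hM E h.hE p h.hp A ⟨h.hAE, h.hA, h.hA2⟩
  have hM1 : M ≠ ⊥ := by
    rintro rfl
    exact hnb (le_bot_iff.mp hMsM)
  -- (i) `Z` has no fixed points on `M_σ`
  have hZgood : sigmaCore M ⊓ Subgroup.centralizer (omegaZ p S : Set G) = ⊥ := by
    by_contra hne
    exact hxM ((h18c _ hZA hZ hne).1 (le_centralizer_omegaZ p S hxS))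
  -- (ii) elements of `S ∩ M` centralize `A`
  have hcomm : ∀ g ∈ S, g ∈ M → ∀ a ∈ A, g * a = a * g := by
    intro g hgS hgM a ha
    have hT : IsPGroup p ↥(S ⊓ M) := hSp.to_le inf_le_left
    obtain ⟨R, hR, hTR⟩ := exists_sylSet_ge hT (inf_le_right : S ⊓ M ≤ M)
    obtain ⟨P, hP⟩ := exists_sylow_of_mem_sylSet hR
    have hc := (h17b P).1
    have hgR : g ∈ R := hTR ⟨hgS, hgM⟩
    have haR : a ∈ R := hTR ⟨hAS ha, hAM ha⟩
    rw [← hP] at hgR haR
    obtain ⟨g', hg', rfl⟩ := hgR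
    obtain ⟨a', ha', rfl⟩ := haR
    have h1 := hc.is_comm.comm ⟨g', hg'⟩ ⟨a', ha'⟩
    have h2 : g' * a' = a' * g' := congrArg Subtype.val h1
    rw [← map_mul, ← map_mul, h2]
  have hcj : ∀ g ∈ S, g ∈ M → ∀ X : Subgroup G, X ≤ A → cj g X = X := by
    intro g hgS hgM X hXA
    ext y
    rw [mem_cj]
    constructor
    · intro hy
      have h1 := hcomm g hgS hgM _ (hXA hy)
      have h2 : y = g⁻¹ * y * g := by
        calc y = (g * (g⁻¹ * y * g)) * g⁻¹ := by group
          _ = ((g⁻¹ * y * g) * g) * g⁻¹ := by rw [h1]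
          _ = g⁻¹ * y * g := by group
      rw [h2]; exact hy
    · intro hy
      have h1 := hcomm g hgS hgM y (hXA hy)
      have h2 : g⁻¹ * y * g = y := by
        calc g⁻¹ * y * g = g⁻¹ * (y * g) := by group
          _ = g⁻¹ * (g * y) := by rw [h1]
          _ = y := by group
      rw [h2]; exact hy
  have hxpowS : ∀ i : ℕ, x ^ i ∈ S := fun i => S.pow_mem hxS i
  have hxpowN : ∀ i : ℕ, x ^ i ∈ Subgroup.normalizer (A : Set G) :=
    fun i => Subgroup.pow_mem _ hxA i
  -- the transport step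
  have hkey : ∀ (X Y : Subgroup G), X ≤ A → Y ≠ X → ∀ i : ℕ, Y = cj (x ^ i) X →
      Subgroup.centralizer (X : Set G) ≤ M →
      sigmaCore M ⊓ Subgroup.centralizer (Y : Set G) = ⊥ ∧
        (sigmaCore M ≤ Subgroup.centralizer (Y : Set G) → False) := by
    intro X Y hXA hYX i hi hCX
    have hxi : x ^ i ∉ M := by
      intro hmem
      exact hYX (hi.trans (hcj _ (hxpowS i) hmem X hXA))
    have hL : IsCoatom (cj (x ^ i) M) := isCoatom_cj _ hM
    have hLM : cj (x ^ i) M ≠ M := fun hEq => hxi (mem_of_cj_eq hG hM hM1 hEq)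
    have hAL : A ≤ cj (x ^ i) M := by
      have h1 : cj (x ^ i) A = A := cj_eq_self_iff.mpr (hxpowN i)
      calc A = cj (x ^ i) A := h1.symm
        _ ≤ cj (x ^ i) M := cj_mono _ hAM
    have h2 := h17e _ hL hLM hAL
    have h3 : Subgroup.centralizer (Y : Set G) ≤ cj (x ^ i) M := by
      rw [hi, centralizer_cj_eq]
      exact cj_mono _ hCX
    refine ⟨le_bot_iff.mp ((inf_le_inf_left _ h3).trans h2.le), fun hle => ?_⟩
    exact hnb (le_bot_iff.mp ((le_inf le_rfl (hle.trans h3)).trans h2.le))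
  -- (iii) at most one bad point besides `Z`
  have huniq : ∀ X : Subgroup G, X ≤ A → Nat.card X = p → X ≠ omegaZ p S →
      sigmaCore M ⊓ Subgroup.centralizer (X : Set G) ≠ ⊥ →
      ∀ Y : Subgroup G, Y ≤ A → Nat.card Y = p → Y ≠ X →
        sigmaCore M ⊓ Subgroup.centralizer (Y : Set G) = ⊥ := by
    intro X hXA hX hXZ hbad Y hYA hY hYX
    by_cases hYZ : Y = omegaZ p S
    · rw [hYZ]; exact hZgood
    · obtain ⟨i, hi⟩ := htr X Y hXA hX hXZ hYA hY hYZ
      exact (hkey X Y hXA hYX i hi (h18c X hXA hX hbad).1).1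
  -- (iv) generation by centralizers
  haveI : IsMulCommutative ↥A := h.hA.1
  have hAnc : ¬ IsCyclic ↥A := by
    intro hcyc
    obtain ⟨g, hg⟩ := hcyc.exists_generator
    have h1 : orderOf g = Nat.card A := orderOf_eq_card_of_forall_mem_zpowers hg
    have h2 : (g : G) ^ p = 1 := h.hA.2 _ g.2
    have h3 : g ^ p = 1 := Subtype.ext (by simpa using h2)
    have h4 : orderOf g ∣ p := orderOf_dvd_of_pow_eq_one h3
    rw [h1, h.hA2] at h4
    have h5 := Nat.le_of_dvd hp.pos h4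
    nlinarith [hp.two_le]
  have hMN : M ≤ Subgroup.normalizer (sigmaCore M : Set G) := le_normalizer_piCoreOf (sigma M) M
  have hcop : (Nat.card A).Coprime (Nat.card (sigmaCore M)) := by
    rw [h.hA2]
    apply Nat.Coprime.pow_left
    rw [Nat.Prime.coprime_iff_not_dvd hp]
    intro hdvd
    exact h.hp.2.1 (Cfsg.Agent.Lib.Helper3.BG12S.mem_sigma_of_dvd_sigmaCore hp hdvd)
  have hgen := Cfsg.Agent.S0058.result A (sigmaCore M) hAnc (hAM.trans hMN) hcop
  have hex : ∃ a ∈ A, a ≠ 1 ∧ sigmaCore M ⊓ Subgroup.centralizer {a} ≠ ⊥ := by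
    by_contra hno
    push Not at hno
    apply hnb
    rw [← hgen]
    apply le_bot_iff.mp
    apply iSup₂_le
    intro a ha
    rw [hno a ha.1 ha.2]
  obtain ⟨a, haA, ha1, habad⟩ := hex
  have hXsA : Subgroup.zpowers a ≤ A := (Subgroup.zpowers_le).mpr haA
  have hXs : Nat.card (Subgroup.zpowers a) = p := card_zpowers_of_pow (h.hA.2 a haA) ha1
  have hXsbad : sigmaCore M ⊓ Subgroup.centralizer ((Subgroup.zpowers a : Subgroup G) : Set G) ≠ ⊥ := by
    rw [centralizer_zpowers_eq]; exact habad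
  have hXsZ : Subgroup.zpowers a ≠ omegaZ p S := by
    intro hEq
    rw [hEq] at hXsbad
    exact hXsbad hZgood
  have hMsle : sigmaCore M ≤ Subgroup.centralizer ((Subgroup.zpowers a : Subgroup G) : Set G) := by
    have hterm : ∀ b ∈ {b : G | b ∈ A ∧ b ≠ 1}, sigmaCore M ⊓ Subgroup.centralizer {b} ≤
        Subgroup.centralizer ((Subgroup.zpowers a : Subgroup G) : Set G) := by
      rintro b ⟨hbA, hb1⟩
      have hYA : Subgroup.zpowers b ≤ A := (Subgroup.zpowers_le).mpr hbA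
      have hY : Nat.card (Subgroup.zpowers b) = p := card_zpowers_of_pow (h.hA.2 b hbA) hb1
      by_cases hYX : Subgroup.zpowers b = Subgroup.zpowers a
      · rw [← centralizer_zpowers_eq, hYX]; exact inf_le_right
      · have := huniq _ hXsA hXs hXsZ hXsbad _ hYA hY hYX
        rw [centralizer_zpowers_eq] at this
        rw [this]; exact bot_le
    calc sigmaCore M = ⨆ b ∈ {b : G | b ∈ A ∧ b ≠ 1}, sigmaCore M ⊓ Subgroup.centralizer {b} := hgen.symm
      _ ≤ _ := iSup₂_le hterm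
  have hXsA0 : Subgroup.zpowers a ≤ A ⊓ Subgroup.centralizer (sigmaCore M : Set G) :=
    le_inf hXsA (Subgroup.le_centralizer_iff.mp hMsle)
  have hA0ne : A ⊓ Subgroup.centralizer (sigmaCore M : Set G) ≠ A := by
    intro hEq
    have h1 : A ≤ Subgroup.centralizer (sigmaCore M : Set G) := inf_eq_left.mp hEq
    have h2 : sigmaCore M ≤ Subgroup.centralizer (A : Set G) := Subgroup.le_centralizer_iff.mp h1
    exact hnb (le_bot_iff.mp ((le_inf le_rfl h2).trans h17d.le))
  have hA0card : Nat.card ↥(A ⊓ Subgroup.centralizer (sigmaCore M : Set G)) = p := by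
    have hd : Nat.card ↥(A ⊓ Subgroup.centralizer (sigmaCore M : Set G)) ∣ p ^ 2 := by
      rw [← h.hA2]; exact Subgroup.card_dvd_of_le inf_le_left
    obtain ⟨k, hk, hkc⟩ := (Nat.dvd_prime_pow hp).mp hd
    have hk1 : 1 ≤ k := by
      have hd2 : p ∣ p ^ k := by
        rw [← hkc]
        have := Subgroup.card_dvd_of_le hXsA0
        rwa [hXs] at this
      rcases Nat.eq_zero_or_pos k with h0 | h0
      · subst h0
        rw [pow_zero] at hd2
        exact absurd (Nat.le_of_dvd one_pos hd2) (by have := hp.two_le; omega)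
      · exact h0
    have hk2 : k ≠ 2 := by
      rintro rfl
      apply hA0ne
      apply Subgroup.eq_of_le_of_card_ge inf_le_left
      rw [hkc, h.hA2]
    have hk' : k = 1 := by omega
    rw [hkc, hk', pow_one]
  have hA0eq : Subgroup.zpowers a = A ⊓ Subgroup.centralizer (sigmaCore M : Set G) := by
    apply Subgroup.eq_of_le_of_card_ge hXsA0
    rw [hA0card, hXs]
  refine ⟨hA0card, ?_, ?_⟩
  · rw [← hA0eq]; exact hXsZ
  · intro X hXE hX hXA0
    have hXA : X ≤ A := h18a X hXE hX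
    rw [← hA0eq] at hXA0
    refine ⟨huniq _ hXsA hXs hXsZ hXsbad X hXA hX hXA0, ?_⟩
    intro hCX
    by_cases hXZ : X = omegaZ p S
    · rw [hXZ] at hCX
      exact hxM (hCX (le_centralizer_omegaZ p S hxS))
    · obtain ⟨i, hi⟩ := htr X _ hXA hX hXZ hXsA hXs hXsZ
      exact (hkey X _ hXA (Ne.symm hXA0) i hi hCX).2 hMsle
end Cfsg.Agent.Lib.Helper2.BG12x
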