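import Cfsg.Agent.Lib.Helper41.BG11Kit
import Cfsg.Agent.Lib.Helper31.PGrp
import Cfsg.Agent.Lib.Helper2.BG12xT2
import Cfsg.Agent.S0058

/-!
# B&G 11.5 (piece BG11-AB for helper41): the Sylow `p`-subgroups of `M` are abelian
-/

set_option autoImplicit false
open Cfsg Cfsg.Agent.Lib.Helper32 Cfsg.Agent.Lib.Helper32.BG10 Cfsg.Agent.Lib.Helper3.BG12
open Cfsg.Agent.Lib.Helper41.BG11
namespace Cfsg.Agent.Lib.Helper2.BG11
open Cfsg.Agent.Lib.Helper2.BG12x
universe u
variable {G : Type u} [Group G] [Finite G]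

theorem not_cyclic_of_exp {p : ℕ} (hp : p.Prime) {B : Subgroup G} (he : ∀ a ∈ B, a ^ p = 1)
    (hc : Nat.card B = p ^ 2) : ¬ IsCyclic ↥B := by
  intro hcyc
  obtain ⟨g, hg⟩ := hcyc.exists_generator
  have h1 : orderOf g = Nat.card B := orderOf_eq_card_of_forall_mem_zpowers hg
  have h2 : (g : G) ^ p = 1 := he _ g.2
  have h3 : g ^ p = 1 := Subtype.ext (by simpa using h2)
  have h4 : orderOf g ∣ p := orderOf_dvd_of_pow_eq_one h3
  rw [h1, hc] at h4
  have h5 := Nat.le_of_dvd hp.pos h4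
  nlinarith [hp.two_le]

omit [Finite G] in
theorem inf_cj_eq_bot {S C : Subgroup G} {v : G} (hv : v ∈ Subgroup.normalizer (S : Set G))
    (h : S ⊓ C = ⊥) : S ⊓ cj v C = ⊥ := by
  rw [eq_bot_iff]
  rintro y ⟨hyS, hyC⟩
  have hS : cj v S = S := cj_eq_self_iff.mpr hv
  have h1 : y ∈ cj v S := by rw [hS]; exact hyS
  have h2 : v⁻¹ * y * v ∈ S := mem_cj.mp h1
  have h3 : v⁻¹ * y * v ∈ C := mem_cj.mp hyC
  have h4 : v⁻¹ * y * v ∈ S ⊓ C := ⟨h2, h3⟩
  rw [h] at h4
  have h5 : v⁻¹ * y * v = 1 := Subgroup.mem_bot.mp h4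
  rw [Subgroup.mem_bot]
  calc y = v * (v⁻¹ * y * v) * v⁻¹ := by group
    _ = 1 := by rw [h5]; group

omit [Finite G] in
theorem cent_le_norm (Z : Subgroup G) :
    Subgroup.centralizer (Z : Set G) ≤ Subgroup.normalizer (Z : Set G) := by
  intro x hx
  rw [Subgroup.mem_normalizer_iff]
  intro y
  constructor
  · intro hy
    have h1 : y * x = x * y := (Subgroup.mem_centralizer_iff.mp hx) y hy
    have h2 : x * y * x⁻¹ = y := by rw [← h1]; group
    rw [h2]; exact hy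
  · intro hy
    have h1 : x * y * x⁻¹ * x = x * (x * y * x⁻¹) := (Subgroup.mem_centralizer_iff.mp hx) _ hy
    have h2 : y = x * y * x⁻¹ := by
      have h3 : x * y = x * (x * y * x⁻¹) := by rw [← h1]; group
      exact mul_left_cancel h3
    rw [h2]; exact hy

theorem ab_aux (hG : IsMinSimpleOddOrder G) (hT1 : PT1 G) (hTI : PTI G) (hNil : PNil G)
    (hNe : PNe G) (hBSA : PBSA G) (hBSB : PBSB G) {M : Subgroup G} {p : ℕ} {A A₀ : Subgroup G}
    (hExc : Exc M p A A₀) {P : Subgroup G} (hP : P ∈ sylSet p M) (hAP : A ≤ P)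
    (hnc : ¬ ∀ a ∈ P, ∀ b ∈ P, a * b = b * a) : False := by
  have hExc' := hExc
  obtain ⟨hM, hp, hσ, hAM, hmax, hAc, hid, hA₀, hA₀c, hN⟩ := hExc'
  haveI : Fact p.Prime := ⟨hp⟩
  have hPp : IsPGroup p P := isPGroup_of_mem_sylSet hP
  have hPM : P ≤ M := hP.1
  have hMN : M ≤ Subgroup.normalizer (sigmaCore M : Set G) := le_normalizer_piCoreOf (sigma M) M
  -- `P` does not centralize `A`
  have hne : ¬ P ≤ Subgroup.centralizer (A : Set G) := by
    intro hle
    have hc := hBSA p A P hp hmax hAc hPp hAP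
    apply hnc
    intro a ha b hb
    exact Cfsg.Agent.Lib.Helper31.isMulComm_iff.mp hc a ⟨ha, hle ha⟩ b ⟨hb, hle hb⟩
  have hΩ : ∀ x ∈ P ⊓ Subgroup.centralizer (A : Set G), x ^ p = 1 → x ∈ A := by
    intro x hx hxp
    have hB : IsElementaryAbelian p (A ⊔ Subgroup.zpowers x) := by
      apply Cfsg.Agent.Lib.Helper31.elemAb_sup hmax.1 (Cfsg.Agent.Lib.Helper31.elemAb_zpowers hxp)
      intro a ha b hb
      have hb' : b ∈ Subgroup.centralizer (A : Set G) := (Subgroup.zpowers_le.mpr hx.2) hb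
      exact Subgroup.mem_centralizer_iff.mp hb' a ha
    have hEq := hmax.2 _ hB le_sup_left
    rw [← hEq]
    exact Subgroup.mem_sup_right (Subgroup.mem_zpowers x)
  obtain ⟨Z₀, hZA, hZc, hPZ, hNZ, -, htrans⟩ := hBSB p A P hp hPp hAP hmax.1 hAc hΩ hne
  have hP1 : P ≠ ⊥ := by
    rintro rfl
    have hA1 : A = ⊥ := le_bot_iff.mp hAP
    rw [hA1, Subgroup.card_bot] at hAc
    have := hp.one_lt
    nlinarith
  have hNP : ¬ Subgroup.normalizer (P : Set G) ≤ M :=
    fun hle => hσ (mem_sigma_of_normalizer_le hP hP1 hle)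
  obtain ⟨g, hgN, hgM⟩ := SetLike.not_le_iff_exists.mp hNP
  have hginvN : g⁻¹ ∈ Subgroup.normalizer (P : Set G) := Subgroup.inv_mem _ hgN
  have hcjP : cj g P = P := cj_eq_self_iff.mpr hgN
  have hcjP' : cj g⁻¹ P = P := cj_eq_self_iff.mpr hginvN
  have hgZ : cj g Z₀ = Z₀ := cj_eq_self_iff.mpr (hNZ hgN)
  have hA₀Z : A₀ ≠ Z₀ := by
    intro hEq
    apply hgM
    apply hN
    rw [hEq]
    exact hNZ hgN
  have hgAP : cj g A ≤ P := by
    calc cj g A ≤ cj g P := cj_mono g hAP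
      _ = P := hcjP
  have hAgM : A ≤ cj g M := by
    have h1 : cj g⁻¹ A ≤ M := by
      calc cj g⁻¹ A ≤ cj g⁻¹ P := cj_mono _ hAP
        _ = P := hcjP'
        _ ≤ M := hPM
    calc A = cj g (cj g⁻¹ A) := (cj_cj_inv g A).symm
      _ ≤ cj g M := cj_mono g h1
  obtain ⟨-, hTI2⟩ := hTI M p A A₀ hExc g hgM hAgM
  -- the claim: no conjugate point has fixed points on `M_σ`
  have hclaim : ∀ X : Subgroup G, X ≤ A → Nat.card X = p →
      sigmaCore M ⊓ Subgroup.centralizer ((cj g X : Subgroup G) : Set G) = ⊥ := by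
    intro X hXA hXc
    by_cases hXZ : X = Z₀
    · rw [hXZ, hgZ]
      by_contra hD
      have hcard : Nat.card ↥(sigmaCore M ⊓ Subgroup.centralizer (Z₀ : Set G)) ≠ 1 :=
        fun h => hD (Subgroup.card_eq_one.mp h)
      obtain ⟨q, hq, hqD⟩ := Nat.exists_prime_and_dvd hcard
      haveI : Fact q.Prime := ⟨hq⟩
      have hqS : q ∣ Nat.card (sigmaCore M) := hqD.trans (Subgroup.card_dvd_of_le inf_le_left)
      have hqσ : q ∈ sigma M := Cfsg.Agent.Lib.Helper3.BG12S.mem_sigma_of_dvd_sigmaCore hq hqS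
      obtain ⟨y, hy⟩ := exists_prime_orderOf_dvd_card' q hqD
      have hyq : (y : G) ^ q = 1 := by
        have h1 := pow_orderOf_eq_one y
        rw [hy] at h1
        have h2 := congrArg Subtype.val h1
        simpa using h2
      have hy1 : (y : G) ≠ 1 := by
        intro h
        have h1 : y = 1 := Subtype.ext h
        rw [h1, orderOf_one] at hy
        exact hq.one_lt.ne hy
      have hYc : Nat.card (Subgroup.zpowers (y : G)) = q := card_zpowers_of_pow hyq hy1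
      have hYq : IsPGroup q (Subgroup.zpowers (y : G)) :=
        IsPGroup.of_card (n := 1) (by rw [hYc, pow_one])
      have hYS : Subgroup.zpowers (y : G) ≤ sigmaCore M := Subgroup.zpowers_le.mpr y.2.1
      obtain ⟨Q₁, hQ₁, hYQ⟩ := exists_sylSet_ge hYq hYS
      have hyQ : (y : G) ∈ Q₁ := hYQ (Subgroup.mem_zpowers _)
      have hnil := hNil M p A A₀ hExc
      have hMQ : M ≤ Subgroup.normalizer (Q₁ : Set G) :=
        hMN.trans (Cfsg.Agent.Lib.Helper3.BG12S.normalizer_le_of_nilpotent hnil hQ₁)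
      refine hT1 M p A A₀ hExc q hq hqσ g hgM Q₁ Q₁ hQ₁ hQ₁ (hAM.trans hMQ) ?_
        (Subgroup.centralizer (Z₀ : Set G)) ?_ (hAP.trans hPZ) ?_ ?_
      · intro a ha
        rw [mem_normalizer_cj]
        apply hMQ
        apply hPM
        have h1 : g⁻¹ * a * g ∈ cj g⁻¹ P := by
          rw [mem_cj]
          have e : (g⁻¹)⁻¹ * (g⁻¹ * a * g) * g⁻¹ = a := by group
          rw [e]; exact hAP ha
        rwa [hcjP'] at h1
      · intro htop
        have hZ1 : Z₀ ≠ ⊥ := by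
          rintro rfl
          rw [Subgroup.card_bot] at hZc
          exact hp.one_lt.ne hZc
        have hZ2 : Z₀ ≠ ⊤ := by
          rintro rfl
          exact hM.1 (top_le_iff.mp (hZA.trans hAM))
        apply minSimple_normalizer_ne_top hG hZ1 hZ2
        apply top_le_iff.mp
        rw [← htop]
        exact cent_le_norm Z₀
      · intro hbot
        have h1 : (y : G) ∈ Subgroup.centralizer (Z₀ : Set G) ⊓ Q₁ := ⟨y.2.2, hyQ⟩
        rw [hbot] at h1
        exact hy1 (Subgroup.mem_bot.mp h1)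
      · intro hbot
        have e : g⁻¹ * (g * (y : G) * g⁻¹) * g = (y : G) := by group
        have h1 : g * (y : G) * g⁻¹ ∈ cj g Q₁ := by
          rw [mem_cj, e]; exact hyQ
        have h2 : g * (y : G) * g⁻¹ ∈ Subgroup.centralizer (Z₀ : Set G) := by
          have h3 : g * (y : G) * g⁻¹ ∈ cj g (Subgroup.centralizer (Z₀ : Set G)) := by
            rw [mem_cj, e]; exact y.2.2
          rw [← centralizer_cj_eq, hgZ] at h3
          exact h3
        have h4 : g * (y : G) * g⁻¹ ∈ Subgroup.centralizer (Z₀ : Set G) ⊓ cj g Q₁ := ⟨h2, h1⟩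
        rw [hbot] at h4
        have h5 : g * (y : G) * g⁻¹ = 1 := Subgroup.mem_bot.mp h4
        apply hy1
        calc (y : G) = g⁻¹ * (g * (y : G) * g⁻¹) * g := by group
          _ = 1 := by rw [h5]; group
    · obtain ⟨u, hu, hX⟩ := htrans A₀ X hA₀ hXA hA₀c hXc hA₀Z hXZ
      have hvP : g * u * g⁻¹ ∈ P := (Subgroup.mem_normalizer_iff.mp hgN u).mp hu.1
      have hvN : g * u * g⁻¹ ∈ Subgroup.normalizer (sigmaCore M : Set G) := hMN (hPM hvP)
      have h1 : cj g X = cj (g * u * g⁻¹) (cj g A₀) := by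
        rw [hX, ← cj_mul, ← cj_mul]
        congr 1
        group
      rw [h1, centralizer_cj_eq]
      exact inf_cj_eq_bot hvN hTI2
  -- generation by centralizers for `cj g A` acting on `M_σ`
  have hA'c : ∀ a ∈ cj g A, ∀ b ∈ cj g A, a * b = b * a :=
    cj_comm g (Cfsg.Agent.Lib.Helper31.isMulComm_iff.mp hmax.1.1)
  haveI : IsMulCommutative ↥(cj g A) := Cfsg.Agent.Lib.Helper31.isMulComm_iff.mpr hA'c
  have hA'e : ∀ a ∈ cj g A, a ^ p = 1 := cj_exp g hmax.1.2
  have hA'card : Nat.card (cj g A) = p ^ 2 := by rw [card_cj]; exact hAc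
  have hA'nc : ¬ IsCyclic ↥(cj g A) := not_cyclic_of_exp hp hA'e hA'card
  have hA'N : cj g A ≤ Subgroup.normalizer (sigmaCore M : Set G) := hgAP.trans (hPM.trans hMN)
  have hcop : (Nat.card (cj g A)).Coprime (Nat.card (sigmaCore M)) := by
    rw [hA'card]
    apply Nat.Coprime.pow_left
    rw [Nat.Prime.coprime_iff_not_dvd hp]
    intro hdvd
    exact hσ (Cfsg.Agent.Lib.Helper3.BG12S.mem_sigma_of_dvd_sigmaCore hp hdvd)
  have hgen := Cfsg.Agent.S0058.result (cj g A) (sigmaCore M) hA'nc hA'N hcop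
  apply hNe M hM
  rw [← hgen]
  apply le_bot_iff.mp
  apply iSup₂_le
  rintro a ⟨haA, ha1⟩
  have hX1 : cj g⁻¹ (Subgroup.zpowers a) ≤ A := by
    calc cj g⁻¹ (Subgroup.zpowers a) ≤ cj g⁻¹ (cj g A) := cj_mono _ (Subgroup.zpowers_le.mpr haA)
      _ = A := cj_inv_cj g A
  have hX2 : Nat.card (cj g⁻¹ (Subgroup.zpowers a)) = p := by
    rw [card_cj]; exact card_zpowers_of_pow (hA'e a haA) ha1
  have h1 := hclaim _ hX1 hX2
  rw [cj_cj_inv, centralizer_zpowers_eq] at h1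
  rw [h1]

theorem ab (hG : IsMinSimpleOddOrder G) (hT1 : PT1 G) (hTI : PTI G) (hNil : PNil G) (hNe : PNe G)
    (hBSA : PBSA G) (hBSB : PBSB G) : PAb G := by
  intro M p A A₀ hExc
  have hExc' := hExc
  obtain ⟨hM, hp, hσ, hAM, hmax, hAc, hid, hA₀, hA₀c, hN⟩ := hExc'
  haveI : Fact p.Prime := ⟨hp⟩
  have hAp : IsPGroup p A := IsPGroup.of_card hAc
  have key : ∀ P : Subgroup G, P ∈ sylSet p M → A ≤ P → ∀ a ∈ P, ∀ b ∈ P, a * b = b * a := by
    intro P hP hAP
    by_contra hnc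
    exact ab_aux hG hT1 hTI hNil hNe hBSA hBSB hExc hP hAP hnc
  intro P hP
  obtain ⟨P', hP', hAP'⟩ := exists_sylSet_ge hAp hAM
  obtain ⟨m, -, hm⟩ := sylSet_conj hP' hP
  rw [← hm]
  exact Cfsg.Agent.Lib.Helper31.isMulComm_iff.mpr (cj_comm m (key P' hP' hAP'))

end Cfsg.Agent.Lib.Helper2.BG11
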