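import Mathlib
import Cfsg.Agent.Lib.Helper18.LSDefs

/-!
# S2333 (Landazuri–Seitz for `Sp_{2n}(q)`, `q` even), piece NHYP
-/

set_option autoImplicit false

namespace Cfsg.Agent.Lib.Helper18.LS

open Matrix

universe u

variable {F : Type u} [Field F] {n : ℕ}

theorem nhyp_key (P : (F × F) × (F × F)) (h : P.1.1 * P.1.2 = 0 ∧ P.2.1 * P.2.2 = 0 ∧
      P.1.1 * P.2.2 + P.2.1 * P.1.2 = 1) :
    (P.1.1 ≠ 0 ∧ P.1.2 = 0 ∧ P.2.1 = 0 ∧ P.2.2 = P.1.1⁻¹) ∨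
      (P.1.1 = 0 ∧ P.1.2 ≠ 0 ∧ P.2.1 = P.1.2⁻¹ ∧ P.2.2 = 0) := by
  obtain ⟨⟨a, c⟩, ⟨a', c'⟩⟩ := P
  obtain ⟨h1, h2, h3⟩ := h
  dsimp only at h1 h2 h3 ⊢
  by_cases ha : a = 0
  · right
    subst ha
    rw [zero_mul, zero_add] at h3
    have hc : c ≠ 0 := by rintro rfl; simp at h3
    have ha' : a' ≠ 0 := by rintro rfl; simp at h3
    exact ⟨rfl, hc, eq_inv_of_mul_eq_one_left h3, (mul_eq_zero.mp h2).resolve_left ha'⟩
  · left
    have hc : c = 0 := (mul_eq_zero.mp h1).resolve_left ha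
    subst hc
    rw [mul_zero, add_zero] at h3
    have hc' : c' ≠ 0 := by rintro rfl; simp at h3
    exact ⟨ha, rfl, (mul_eq_zero.mp h2).resolve_right hc', eq_inv_of_mul_eq_one_right h3⟩

-- piece NHYP
theorem nhyp [Fintype F] :
    Nat.card {P : (F × F) × (F × F) | P.1.1 * P.1.2 = 0 ∧ P.2.1 * P.2.2 = 0 ∧
      P.1.1 * P.2.2 + P.2.1 * P.1.2 = 1} ≤ 2 * (Fintype.card F + 1) := by
  classical
  obtain ⟨φ, hφdef⟩ : ∃ φ : {P : (F × F) × (F × F) | P.1.1 * P.1.2 = 0 ∧ P.2.1 * P.2.2 = 0 ∧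
      P.1.1 * P.2.2 + P.2.1 * P.1.2 = 1} → Bool × F,
      ∀ P, φ P = (decide (P.1.1.1 = 0), P.1.1.1 + P.1.1.2) :=
    ⟨fun P => (decide (P.1.1.1 = 0), P.1.1.1 + P.1.1.2), fun P => rfl⟩
  have hφ : Function.Injective φ := by
    rintro ⟨P, hP⟩ ⟨P', hP'⟩ h
    rw [hφdef, hφdef] at h
    have e1 := congrArg Prod.fst h
    have e2 := congrArg Prod.snd h
    dsimp only at e1 e2
    apply Subtype.ext
    show P = P'
    rcases nhyp_key P hP with ⟨k1, k2, k3, k4⟩ | ⟨k1, k2, k3, k4⟩ <;>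
      rcases nhyp_key P' hP' with ⟨l1, l2, l3, l4⟩ | ⟨l1, l2, l3, l4⟩
    · rw [k2, l2, add_zero, add_zero] at e2
      exact Prod.ext (Prod.ext e2 (k2.trans l2.symm))
        (Prod.ext (k3.trans l3.symm) (by rw [k4, l4, e2]))
    · exfalso; simp [k1, l1] at e1
    · exfalso; simp [k1, l1] at e1
    · rw [k1, l1, zero_add, zero_add] at e2
      exact Prod.ext (Prod.ext (k1.trans l1.symm) e2)
        (Prod.ext (by rw [k3, l3, e2]) (k4.trans l4.symm))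
  calc Nat.card _ ≤ Nat.card (Bool × F) := Nat.card_le_card_of_injective φ hφ
    _ = 2 * Fintype.card F := by
        rw [Nat.card_prod, Nat.card_eq_fintype_card, Nat.card_eq_fintype_card, Fintype.card_bool]
    _ ≤ 2 * (Fintype.card F + 1) := by omega

end Cfsg.Agent.Lib.Helper18.LS
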