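import Mathlib
import Cfsg.Agent.Lib.Helper18.LSDefs

/-!
# S2333 (Landazuri–Seitz for `Sp_{2n}(q)`, `q` even), piece PAIRB
-/

set_option autoImplicit false

namespace Cfsg.Agent.Lib.Helper18.LS

open Matrix

universe u

variable {F : Type u} [Field F] {n : ℕ}

-- piece PAIRB
theorem aniso_of_hyp [CharP F 2] (M : Matrix (Fin n) (Fin n) F) (e₁ e₂ w : Fin n → F)
    (h12 : bl M e₁ e₂ = 1) (h1 : qf M e₁ = 0) (h2 : qf M e₂ = 0)
    (hw1 : bl M w e₁ = 0) (hw2 : bl M w e₂ = 0) (c μ : F)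
    (hc : ∀ t : F, t ^ 2 + t ≠ c) (hμ : μ ^ 2 * qf M w = 1) :
    bl M (e₁ + c • e₂) (e₂ + μ • w) = 1 ∧
      ∀ a b : F, qf M (a • (e₁ + c • e₂) + b • (e₂ + μ • w)) = 0 → a = 0 ∧ b = 0 := by
  have h20 : (2 : F) = 0 := CharTwo.two_eq_zero
  have hb : bl M (e₁ + c • e₂) (e₂ + μ • w) = 1 := by
    simp only [bl_add_left, bl_add_right, bl_smul_left, bl_smul_right, bl_self,
      bl_comm M e₁ w, bl_comm M e₂ w, hw1, hw2, h12]
    ring
  have hu : qf M (e₁ + c • e₂) = c := by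
    rw [qf_add, qf_smul, h1, h2, bl_smul_right, h12]; ring
  have hv : qf M (e₂ + μ • w) = 1 := by
    rw [qf_add, qf_smul, h2, bl_smul_right, bl_comm M e₂ w, hw2]
    linear_combination hμ
  refine ⟨hb, fun a b h => ?_⟩
  rw [qf_add, qf_smul, qf_smul, hu, hv, bl_smul_left, bl_smul_right, hb] at h
  by_cases ha : a = 0
  · subst ha
    refine ⟨rfl, ?_⟩
    have h3 : b ^ 2 = 0 := by linear_combination h
    exact (pow_eq_zero_iff (n := 2) (by norm_num)).mp h3
  · exfalso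
    apply hc (b / a)
    have h4 : (b / a) ^ 2 + b / a = (b ^ 2 + a * b) / a ^ 2 := by
      first | (field_simp; ring) | field_simp
    rw [h4, div_eq_iff (pow_ne_zero 2 ha)]
    linear_combination h - a ^ 2 * c * h20

end Cfsg.Agent.Lib.Helper18.LS
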