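import Mathlib
import Cfsg.Agent.Lib.Helper18.SLMDefs

/-!
# Project SLM (helper18, S2332), piece FOURIER (helper2): Fourier inversion on `F^k`.
-/

set_option autoImplicit false

namespace Cfsg.Agent.Lib.Helper18.SLM

open Matrix

universe u

variable {F : Type u} [Field F] [Fintype F]

/-- orthogonality of the characters `l ↦ ψ (l ⬝ᵥ z)`: the case `z = 0` -/
theorem fourier_orth_zero (ψ : AddChar F ℂ) {k : ℕ} :
    ∑ l : Fin k → F, ψ (l ⬝ᵥ (0 : Fin k → F)) = (Fintype.card F : ℂ) ^ k := by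
  have e : (∑ l : Fin k → F, ψ (l ⬝ᵥ (0 : Fin k → F))) = ∑ l : Fin k → F, (1 : ℂ) :=
    Finset.sum_congr rfl (fun l _ => by rw [dotProduct_zero, AddChar.map_zero_eq_one])
  rw [e, Finset.sum_const, Finset.card_univ, Fintype.card_fun, Fintype.card_fin, nsmul_eq_mul,
    mul_one, Nat.cast_pow]

/-- orthogonality of the characters `l ↦ ψ (l ⬝ᵥ z)`: the case `z ≠ 0` -/
theorem fourier_orth_ne (ψ : AddChar F ℂ) (hψ : ψ ≠ 1) {k : ℕ} (z : Fin k → F) (hz : z ≠ 0) :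
    ∑ l : Fin k → F, ψ (l ⬝ᵥ z) = 0 := by
  classical
  obtain ⟨i, hi⟩ := Function.ne_iff.mp hz
  have hi' : z i ≠ 0 := hi
  obtain ⟨c, hc⟩ := (AddChar.ne_one_iff).mp hψ
  obtain ⟨S, hS⟩ : ∃ S : ℂ, S = ∑ l : Fin k → F, ψ (l ⬝ᵥ z) := ⟨_, rfl⟩
  have h1 : ∑ l : Fin k → F, ψ ((l + Pi.single i (c / z i)) ⬝ᵥ z) = S := by
    rw [hS]
    exact Equiv.sum_comp (Equiv.addRight (Pi.single i (c / z i)))
      (fun l : Fin k → F => ψ (l ⬝ᵥ z))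
  have h2 : ∑ l : Fin k → F, ψ ((l + Pi.single i (c / z i)) ⬝ᵥ z) = ψ c * S := by
    rw [hS, Finset.mul_sum]
    apply Finset.sum_congr rfl
    intro l _
    rw [add_dotProduct, AddChar.map_add_eq_mul, single_dotProduct, div_mul_cancel₀ c hi',
      mul_comm]
  have h3 : (ψ c - 1) * S = 0 := by
    rw [sub_mul, one_mul, ← h2, h1, sub_self]
  rw [← hS]
  exact (mul_eq_zero.mp h3).resolve_left (sub_ne_zero.mpr hc)

-- piece FOURIER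
theorem trace_x1 {V : Type*} [AddCommGroup V] [Module ℂ V] [FiniteDimensional ℂ V]
    (ψ : AddChar F ℂ) (hψ : ψ ≠ 1) {k : ℕ}
    (ρ : Representation ℂ (Matrix.SpecialLinearGroup (Fin (k + 1)) F) V)
    (hmult : ∀ l : Fin k → F, (Module.finrank ℂ (wt ψ ρ l) : ℂ) = ((Fintype.card F : ℂ) ^ k)⁻¹ *
      ∑ u : Fin k → F, ψ (-(l ⬝ᵥ u)) * LinearMap.trace ℂ V (ρ (x1 u)))
    (u : Fin k → F) :
    LinearMap.trace ℂ V (ρ (x1 u)) =
      ∑ l : Fin k → F, ψ (l ⬝ᵥ u) * (Module.finrank ℂ (wt ψ ρ l) : ℂ) := by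
  obtain ⟨T, hT⟩ : ∃ T : (Fin k → F) → ℂ, ∀ w, T w = LinearMap.trace ℂ V (ρ (x1 w)) :=
    ⟨_, fun _ => rfl⟩
  have hq0 : (Fintype.card F : ℂ) ≠ 0 := Nat.cast_ne_zero.mpr Fintype.card_ne_zero
  have hq : ((Fintype.card F : ℂ) ^ k) ≠ 0 := pow_ne_zero _ hq0
  rw [← hT u]
  have h1 : ∀ l : Fin k → F, ψ (l ⬝ᵥ u) * (Module.finrank ℂ (wt ψ ρ l) : ℂ) =
      ((Fintype.card F : ℂ) ^ k)⁻¹ * ∑ w : Fin k → F, T w * ψ (l ⬝ᵥ (u - w)) := by
    intro l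
    have e : ∀ S1 : ℂ, ψ (l ⬝ᵥ u) * (((Fintype.card F : ℂ) ^ k)⁻¹ * S1) =
        ((Fintype.card F : ℂ) ^ k)⁻¹ * (ψ (l ⬝ᵥ u) * S1) := fun S1 => by ring
    rw [hmult l, e, Finset.mul_sum]
    congr 1
    apply Finset.sum_congr rfl
    intro w _
    rw [hT w, dotProduct_sub, sub_eq_add_neg, AddChar.map_add_eq_mul]
    ring
  have e1 : ∑ l : Fin k → F, ψ (l ⬝ᵥ u) * (Module.finrank ℂ (wt ψ ρ l) : ℂ) =
      ∑ l : Fin k → F, ((Fintype.card F : ℂ) ^ k)⁻¹ *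
        ∑ w : Fin k → F, T w * ψ (l ⬝ᵥ (u - w)) :=
    Finset.sum_congr rfl (fun l _ => h1 l)
  rw [e1, ← Finset.mul_sum, Finset.sum_comm, Finset.sum_eq_single u]
  · rw [← Finset.mul_sum, sub_self, fourier_orth_zero]
    field_simp
  · intro w _ hw
    rw [← Finset.mul_sum, fourier_orth_ne ψ hψ _ (sub_ne_zero.mpr (Ne.symm hw)), mul_zero]
  · intro h
    exact absurd (Finset.mem_univ u) h

end Cfsg.Agent.Lib.Helper18.SLM
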