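import Mathlib
import Cfsg.Agent.Lib.Helper18.LSDefs
import Cfsg.Agent.Lib.Helper18.WRDefs

/-!
# Project WR (helper18, S2347), piece PARCOMM
-/

set_option autoImplicit false

namespace Cfsg.Agent.Lib.Helper18.WR

open Matrix

universe u

variable {F : Type u} [Field F] {n : ℕ}

-- piece PARCOMM
theorem par_comm {E V : Type*} [AddCommGroup E] [Module ℂ E] [FiniteDimensional ℂ E]
    [AddCommGroup V] (W : V → Module.End ℂ E) (P : Module.End ℂ E)
    (hPW : ∀ v, P * W v = W (-v) * P) (hPP : P * P = 1) (htrP : LinearMap.trace ℂ E P ≠ 0)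
    (hschur : ∀ C : Module.End ℂ E, (∀ v, C * W v = W v * C) → ∃ z : ℂ, C = z • 1)
    (γ : V ≃+ V) (A : (Module.End ℂ E)ˣ)
    (hA : ∀ v, (A : Module.End ℂ E) * W v = W (γ v) * (A : Module.End ℂ E)) :
    (A : Module.End ℂ E) * P = P * (A : Module.End ℂ E) := by
  obtain ⟨a, ha⟩ : ∃ a : Module.End ℂ E, a = (A : Module.End ℂ E) := ⟨_, rfl⟩
  obtain ⟨b, hb⟩ : ∃ b : Module.End ℂ E,
      b = ((A⁻¹ : (Module.End ℂ E)ˣ) : Module.End ℂ E) := ⟨_, rfl⟩
  have hab : a * b = 1 := by rw [ha, hb]; exact Units.mul_inv A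
  have hba : b * a = 1 := by rw [ha, hb]; exact Units.inv_mul A
  rw [← ha]
  have hA' : ∀ v, a * W v = W (γ v) * a := by intro v; rw [ha]; exact hA v
  have hAi : ∀ v, b * W (γ v) = W v * b := by
    intro v
    calc b * W (γ v) = b * W (γ v) * (a * b) := by rw [hab, mul_one]
      _ = b * (W (γ v) * a) * b := by simp only [mul_assoc]
      _ = b * (a * W v) * b := by rw [hA' v]
      _ = (b * a) * W v * b := by simp only [mul_assoc]
      _ = W v * b := by rw [hba, one_mul]
  have hQ : ∀ w, (a * P * b) * W w = W (-w) * (a * P * b) := by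
    intro w
    obtain ⟨v, rfl⟩ := γ.surjective w
    calc (a * P * b) * W (γ v) = a * P * (b * W (γ v)) := by simp only [mul_assoc]
      _ = a * (P * W v) * b := by rw [hAi v]; simp only [mul_assoc]
      _ = (a * W (-v)) * P * b := by rw [hPW v]; simp only [mul_assoc]
      _ = W (γ (-v)) * a * P * b := by rw [hA' (-v)]
      _ = W (-(γ v)) * (a * P * b) := by rw [map_neg]; simp only [mul_assoc]
  obtain ⟨z, hz⟩ := hschur (P * (a * P * b)) (by
    intro w
    calc P * (a * P * b) * W w = P * ((a * P * b) * W w) := by simp only [mul_assoc]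
      _ = (P * W (-w)) * (a * P * b) := by rw [hQ w]; simp only [mul_assoc]
      _ = W w * (P * (a * P * b)) := by rw [hPW (-w), neg_neg]; simp only [mul_assoc])
  have hQz : a * P * b = z • P := by
    calc a * P * b = (P * P) * (a * P * b) := by rw [hPP, one_mul]
      _ = P * (P * (a * P * b)) := by simp only [mul_assoc]
      _ = z • P := by rw [hz]; simp
  have htr : LinearMap.trace ℂ E (a * P * b) = LinearMap.trace ℂ E P := by
    rw [LinearMap.trace_mul_comm, ← mul_assoc, hba, one_mul]
  have hz1 : z = 1 := by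
    rw [hQz, map_smul, smul_eq_mul] at htr
    have h0 : (z - 1) * LinearMap.trace ℂ E P = 0 := by linear_combination htr
    rcases mul_eq_zero.mp h0 with h | h
    · exact sub_eq_zero.mp h
    · exact absurd h htrP
  rw [hz1, one_smul] at hQz
  calc a * P = a * P * (b * a) := by rw [hba, mul_one]
    _ = (a * P * b) * a := by simp only [mul_assoc]
    _ = P * a := by rw [hQz]

end Cfsg.Agent.Lib.Helper18.WR
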