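import Cfsg.Agent.Lib.Helper41.BG11Kit
import Cfsg.Agent.Lib.Helper72.HHFit
import Cfsg.Agent.Lib.Helper2.BG11AB
import Cfsg.Agent.S1445
import Cfsg.Agent.S0026

/-!
# Piece BG11-Z (for helper41): S1445 modulo a central subgroup
-/

set_option autoImplicit false
open Cfsg Cfsg.Agent.Lib.Helper32 Cfsg.Agent.Lib.Helper32.BG10 Cfsg.Agent.Lib.Helper3.BG12
open Cfsg.Agent.Lib.Helper41.BG11
namespace Cfsg.Agent.Lib.Helper2.BG11
open Cfsg.Agent.Lib.Helper2.BG12x
open scoped commutatorElement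
universe u
variable {G : Type u} [Group G] [Finite G]

omit [Finite G] in
theorem conj_inv_of_comm {a z : G} (h : z * a = a * z) : a⁻¹ * z⁻¹ * a = z⁻¹ := by
  calc a⁻¹ * z⁻¹ * a = a⁻¹ * z⁻¹ * (a * z) * z⁻¹ := by group
    _ = a⁻¹ * z⁻¹ * (z * a) * z⁻¹ := by rw [h]
    _ = z⁻¹ := by group

/-- the elements of `F` that `R` moves inside the central subgroup `Z` -/
def zX (F R Z K : Subgroup G) (hFK : F ≤ K) (hKZ : K ≤ Subgroup.centralizer (Z : Set G)) :
    Subgroup G where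
  carrier := {x | x ∈ F ∧ ∀ r ∈ R, r * x * r⁻¹ * x⁻¹ ∈ Z}
  mul_mem' := by
    rintro a b ⟨ha, hac⟩ ⟨hb, hbc⟩
    refine ⟨F.mul_mem ha hb, fun r hr => ?_⟩
    have h1 := hac r hr
    have h2 := hbc r hr
    have h3 : (r * b * r⁻¹ * b⁻¹) * a = a * (r * b * r⁻¹ * b⁻¹) :=
      Subgroup.mem_centralizer_iff.mp (hKZ (hFK ha)) _ h2
    have e : r * (a * b) * r⁻¹ * (a * b)⁻¹ =
        (r * a * r⁻¹ * a⁻¹) * (a * (r * b * r⁻¹ * b⁻¹)) * a⁻¹ := by group
    have e2 : r * a * r⁻¹ * a⁻¹ * (r * b * r⁻¹ * b⁻¹ * a) * a⁻¹ =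
        (r * a * r⁻¹ * a⁻¹) * (r * b * r⁻¹ * b⁻¹) := by group
    rw [e, ← h3, e2]
    exact Z.mul_mem h1 h2
  one_mem' := by
    refine ⟨F.one_mem, fun r _ => ?_⟩
    have e : r * 1 * r⁻¹ * (1 : G)⁻¹ = 1 := by group
    rw [e]; exact Z.one_mem
  inv_mem' := by
    rintro a ⟨ha, hac⟩
    refine ⟨F.inv_mem ha, fun r hr => ?_⟩
    have h1 := hac r hr
    have h3 : (r * a * r⁻¹ * a⁻¹) * a = a * (r * a * r⁻¹ * a⁻¹) :=
      Subgroup.mem_centralizer_iff.mp (hKZ (hFK ha)) _ h1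
    have e : r * a⁻¹ * r⁻¹ * a⁻¹⁻¹ = a⁻¹ * (r * a * r⁻¹ * a⁻¹)⁻¹ * a := by group
    rw [e, conj_inv_of_comm h3]
    exact Z.inv_mem h1

omit [Finite G] in
theorem mem_zX {F R Z K : Subgroup G} {hFK : F ≤ K}
    {hKZ : K ≤ Subgroup.centralizer (Z : Set G)} {x : G} :
    x ∈ zX F R Z K hFK hKZ ↔ x ∈ F ∧ ∀ r ∈ R, r * x * r⁻¹ * x⁻¹ ∈ Z := Iff.rfl

theorem zX_le {F R Z K : Subgroup G} (hFK : F ≤ K)
    (hKZ : K ≤ Subgroup.centralizer (Z : Set G))
    (hRF : R ≤ Subgroup.normalizer (F : Set G)) (hRZ : R ≤ Subgroup.normalizer (Z : Set G))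
    (hcop : (Nat.card R).Coprime (Nat.card K)) (hsol : Group.IsSolvable ↥K)
    (hFZ : F ⊓ Subgroup.centralizer (R : Set G) ≤ Z) : zX F R Z K hFK hKZ ≤ Z := by
  have hRX : R ≤ Subgroup.normalizer ((zX F R Z K hFK hKZ : Subgroup G) : Set G) := by
    apply Cfsg.Agent.Lib.Helper72.HH.le_normalizer_of_conj_mem
    rintro s hs x ⟨hxF, hxc⟩
    refine ⟨?_, fun r hr => ?_⟩
    · exact (Subgroup.mem_normalizer_iff.mp (hRF hs) x).mp hxF
    · have h1 := hxc (s⁻¹ * r * s) (R.mul_mem (R.mul_mem (R.inv_mem hs) hr) hs)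
      have h2 := (Subgroup.mem_normalizer_iff.mp (hRZ hs) _).mp h1
      have e : r * (s * x * s⁻¹) * r⁻¹ * (s * x * s⁻¹)⁻¹ =
          s * (s⁻¹ * r * s * x * (s⁻¹ * r * s)⁻¹ * x⁻¹) * s⁻¹ := by group
      rw [e]; exact h2
  have hXK : zX F R Z K hFK hKZ ≤ K := fun x hx => hFK hx.1
  have hcopX : (Nat.card R).Coprime (Nat.card (zX F R Z K hFK hKZ)) :=
    Nat.Coprime.coprime_dvd_right (Subgroup.card_dvd_of_le hXK) hcop
  have hsolX : Group.IsSolvable ↥(zX F R Z K hFK hKZ) :=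
    solvable_of_solvable_injective (Subgroup.inclusion_injective hXK)
  have h26 := Cfsg.Agent.S0026.result R (zX F R Z K hFK hKZ) hRX hcopX (Or.inr hsolX)
  refine h26.symm.le.trans (sup_le ?_ ?_)
  · rw [Subgroup.commutator_le]
    intro x hx r hr
    have h1 := hx.2 r hr
    have e : ⁅x, r⁆ = (r * x * r⁻¹ * x⁻¹)⁻¹ := by
      rw [commutatorElement_def]; group
    rw [e]; exact Z.inv_mem h1
  · rintro x ⟨hx1, hx2⟩
    exact hFZ ⟨hx1.1, hx2⟩

theorem z_core {Q : Type u} [Group Q] [Finite Q] {K R Z T : Subgroup G} (π : ↥T →* Q)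
    (hπs : Function.Surjective π) (hπ1 : ∀ t : ↥T, π t = 1 ↔ (t : G) ∈ Z) {p : ℕ} (hp : p.Prime)
    (hT : K ⊔ R = T) (hRK : R ≤ Subgroup.normalizer (K : Set G)) (hsol : Group.IsSolvable ↥T)
    (hodd : Odd (Nat.card ↥T)) (hRc : Nat.card R = p) (hcop : (Nat.card K).Coprime p)
    (hZK : Z ≤ K) (hKZ : K ≤ Subgroup.centralizer (Z : Set G))
    (hRZ : R ≤ Subgroup.normalizer (Z : Set G))
    (hFZ : fittingOf K ⊓ Subgroup.centralizer (R : Set G) ≤ Z) : ⁅K, R⁆ ≤ fittingOf K := by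
  classical
  haveI : Fact p.Prime := ⟨hp⟩
  have hKT : K ≤ T := hT ▸ le_sup_left
  have hRT : R ≤ T := hT ▸ le_sup_right
  have hTK : T ≤ Subgroup.normalizer (K : Set G) := by
    rw [← hT]; exact sup_le Subgroup.le_normalizer hRK
  haveI hKn : (K.subgroupOf T).Normal := Subgroup.normal_subgroupOf_of_le_normalizer hTK
  haveI : Group.IsSolvable ↥T := hsol
  haveI : Group.IsSolvable Q := solvable_of_surjective hπs
  have hoddQ : Odd (Nat.card Q) := Odd.of_dvd_nat hodd (Subgroup.card_dvd_of_surjective π hπs)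
  haveI hKbn : ((K.subgroupOf T).map π).Normal := hKn.map π hπs
  have hFK : fittingOf K ≤ K := Cfsg.Agent.Lib.Helper72.HH.fittingOf_le K
  have hsolK : Group.IsSolvable ↥K :=
    solvable_of_solvable_injective (Subgroup.inclusion_injective hKT)
  have hX : zX (fittingOf K) R Z K hFK hKZ ≤ Z :=
    zX_le hFK hKZ (hRK.trans (Cfsg.Agent.Lib.Helper72.HH.normalizer_le_normalizer_fittingOf K))
      hRZ (by rw [hRc]; exact hcop.symm) hsolK hFZ
  -- the preimage `F₁` of the Fitting subgroup of the image of `K`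
  have hF₁K : K ⊓ ((fittingOf ((K.subgroupOf T).map π)).comap π).map T.subtype ≤ K := inf_le_left
  have hF₁T : K ⊓ ((fittingOf ((K.subgroupOf T).map π)).comap π).map T.subtype ≤ T :=
    hF₁K.trans hKT
  have hmem : ∀ x : G, x ∈ K ⊓ ((fittingOf ((K.subgroupOf T).map π)).comap π).map T.subtype ↔
      x ∈ K ∧ ∃ t : ↥T, π t ∈ fittingOf ((K.subgroupOf T).map π) ∧ (t : G) = x := by
    intro x
    rw [Subgroup.mem_inf, Subgroup.mem_map]
    simp only [Subgroup.mem_comap, Subgroup.coe_subtype]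
  have hF₁N : K ≤ Subgroup.normalizer
      ((K ⊓ ((fittingOf ((K.subgroupOf T).map π)).comap π).map T.subtype : Subgroup G) : Set G) := by
    apply Cfsg.Agent.Lib.Helper72.HH.le_normalizer_of_conj_mem
    intro g hg y hy
    obtain ⟨hyK, t, ht, rfl⟩ := (hmem y).mp hy
    refine (hmem _).mpr ⟨K.mul_mem (K.mul_mem hg hyK) (K.inv_mem hg),
      (⟨g, hKT hg⟩ : ↥T) * t * (⟨g, hKT hg⟩ : ↥T)⁻¹, ?_, rfl⟩
    have hπg : π ⟨g, hKT hg⟩ ∈ (K.subgroupOf T).map π :=
      Subgroup.mem_map_of_mem π (Subgroup.mem_subgroupOf.mpr hg)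
    have hn := Cfsg.Agent.Lib.Helper32.le_normalizer_fittingOf ((K.subgroupOf T).map π) hπg
    rw [map_mul, map_mul, map_inv]
    exact (Subgroup.mem_normalizer_iff.mp hn (π t)).mp ht
  have hF₁nil : Group.IsNilpotent
      ↥(K ⊓ ((fittingOf ((K.subgroupOf T).map π)).comap π).map T.subtype) := by
    have hcod : ∀ x : ↥(K ⊓ ((fittingOf ((K.subgroupOf T).map π)).comap π).map T.subtype),
        (π.comp (Subgroup.inclusion hF₁T)) x ∈ fittingOf ((K.subgroupOf T).map π) := by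
      intro x
      obtain ⟨-, t, ht, htx⟩ := (hmem x.1).mp x.2
      have hxt : Subgroup.inclusion hF₁T x = t := Subtype.ext htx.symm
      rw [MonoidHom.comp_apply, hxt]
      exact ht
    have hker : ((π.comp (Subgroup.inclusion hF₁T)).codRestrict
        (fittingOf ((K.subgroupOf T).map π)) hcod).ker ≤ Subgroup.center _ := by
      intro x hx
      rw [MonoidHom.mem_ker] at hx
      have h1 : π (Subgroup.inclusion hF₁T x) = 1 := congrArg Subtype.val hx
      have hxZ : (x : G) ∈ Z := (hπ1 _).mp h1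
      rw [Subgroup.mem_center_iff]
      intro g
      apply Subtype.ext
      exact (Subgroup.mem_centralizer_iff.mp (hKZ (hF₁K g.2)) _ hxZ).symm
    haveI hnilb : Group.IsNilpotent ↥(fittingOf ((K.subgroupOf T).map π)) :=
      Cfsg.Agent.Lib.Helper72.HH.isNilpotent_fittingOf ((K.subgroupOf T).map π)
    exact isNilpotent_of_ker_le_center _ hker
  have hF₁ : K ⊓ ((fittingOf ((K.subgroupOf T).map π)).comap π).map T.subtype ≤ fittingOf K :=
    Cfsg.Agent.Lib.Helper72.HH.le_fittingOf_of_nilpotent hF₁K hF₁N hF₁nil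
  -- hypotheses of S1445 in the quotient
  have hKR : (K.subgroupOf T).map π ⊔ (R.subgroupOf T).map π = ⊤ := by
    rw [← Subgroup.map_sup, ← Subgroup.subgroupOf_sup hKT hRT, hT, Subgroup.subgroupOf_self,
      Subgroup.map_top_of_surjective π hπs]
  have hRbc : Nat.card ((R.subgroupOf T).map π) ∣ p := by
    have h1 : Nat.card ((R.subgroupOf T).map π) ∣ Nat.card (R.subgroupOf T) :=
      Subgroup.card_dvd_of_surjective (π.subgroupMap (R.subgroupOf T))
        (π.subgroupMap_surjective _)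
    rwa [Nat.card_congr (Subgroup.subgroupOfEquivOfLe hRT).toEquiv, hRc] at h1
  have hKbc : Nat.card ((K.subgroupOf T).map π) ∣ Nat.card K := by
    have h1 : Nat.card ((K.subgroupOf T).map π) ∣ Nat.card (K.subgroupOf T) :=
      Subgroup.card_dvd_of_surjective (π.subgroupMap (K.subgroupOf T))
        (π.subgroupMap_surjective _)
    rwa [Nat.card_congr (Subgroup.subgroupOfEquivOfLe hKT).toEquiv] at h1
  have hcopb : (Nat.card ((K.subgroupOf T).map π)).Coprime (Nat.card ((R.subgroupOf T).map π)) :=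
    Nat.Coprime.coprime_dvd_left hKbc (Nat.Coprime.coprime_dvd_right hRbc hcop)
  have hprime : ∀ x ∈ (R.subgroupOf T).map π, x ≠ 1 →
      (K.subgroupOf T).map π ⊓ Subgroup.centralizer ({x} : Set Q) =
        (K.subgroupOf T).map π ⊓ Subgroup.centralizer (((R.subgroupOf T).map π : Subgroup Q) : Set Q) := by
    intro x hx hx1
    have ho : orderOf x ∣ p := (Subgroup.orderOf_dvd_natCard _ hx).trans hRbc
    have ho' : orderOf x = p := by
      rcases (Nat.dvd_prime hp).mp ho with h | h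
      · exact absurd (orderOf_eq_one_iff.mp h) hx1
      · exact h
    have hz : Subgroup.zpowers x = (R.subgroupOf T).map π := by
      apply Subgroup.eq_of_le_of_card_ge (Subgroup.zpowers_le.mpr hx)
      rw [Nat.card_zpowers, ho']
      exact Nat.le_of_dvd hp.pos hRbc
    rw [← hz, centralizer_zpowers_eq]
  have hF : fittingOf ((K.subgroupOf T).map π) ⊓
      Subgroup.centralizer (((R.subgroupOf T).map π : Subgroup Q) : Set Q) = ⊥ := by
    rw [eq_bot_iff]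
    rintro y ⟨hy1, hy2⟩
    have hyK : y ∈ (K.subgroupOf T).map π := Cfsg.Agent.Lib.Helper72.HH.fittingOf_le _ hy1
    obtain ⟨t, htK, rfl⟩ := hyK
    have htK' : (t : G) ∈ K := Subgroup.mem_subgroupOf.mp htK
    have htF₁ : (t : G) ∈ K ⊓ ((fittingOf ((K.subgroupOf T).map π)).comap π).map T.subtype :=
      (hmem _).mpr ⟨htK', t, hy1, rfl⟩
    have htX : (t : G) ∈ zX (fittingOf K) R Z K hFK hKZ := by
      refine ⟨hF₁ htF₁, fun r hr => ?_⟩
      have hr' : π ⟨r, hRT hr⟩ ∈ (R.subgroupOf T).map π :=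
        Subgroup.mem_map_of_mem π (Subgroup.mem_subgroupOf.mpr hr)
      have h1 : π ⟨r, hRT hr⟩ * π t = π t * π ⟨r, hRT hr⟩ :=
        Subgroup.mem_centralizer_iff.mp hy2 _ hr'
      have h2 : π ((⟨r, hRT hr⟩ : ↥T) * t * (⟨r, hRT hr⟩ : ↥T)⁻¹ * t⁻¹) = 1 := by
        rw [map_mul, map_mul, map_mul, map_inv, map_inv, h1]; group
      exact (hπ1 _).mp h2
    have htZ : (t : G) ∈ Z := hX htX
    rw [Subgroup.mem_bot]
    exact (hπ1 t).mpr htZ
  have h45 := Cfsg.Agent.S1445.result hoddQ ((K.subgroupOf T).map π) ((R.subgroupOf T).map π)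
    hKR hcopb hprime hF
  rw [Subgroup.commutator_le]
  intro k hk r hr
  apply hF₁
  have hkr : ⁅k, r⁆ ∈ K := by
    rw [commutatorElement_def]
    have h1 : r * k⁻¹ * r⁻¹ ∈ K := (Subgroup.mem_normalizer_iff.mp (hRK hr) k⁻¹).mp (K.inv_mem hk)
    have e : k * r * k⁻¹ * r⁻¹ = k * (r * k⁻¹ * r⁻¹) := by group
    rw [e]; exact K.mul_mem hk h1
  refine (hmem _).mpr ⟨hkr, ⁅(⟨k, hKT hk⟩ : ↥T), ⟨r, hRT hr⟩⁆, ?_, rfl⟩
  apply h45
  rw [map_commutatorElement]
  exact Subgroup.commutator_mem_commutator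
    (Subgroup.mem_map_of_mem π (Subgroup.mem_subgroupOf.mpr hk))
    (Subgroup.mem_map_of_mem π (Subgroup.mem_subgroupOf.mpr hr))

theorem z : PZ G := by
  intro K R Z p hp hRK hsol hodd hRc hcop hZK hKZ hRZ hFZ
  have hTZ : K ⊔ R ≤ Subgroup.normalizer (Z : Set G) :=
    sup_le (hKZ.trans (cent_le_norm Z)) hRZ
  haveI hZn : (Z.subgroupOf (K ⊔ R)).Normal := Subgroup.normal_subgroupOf_of_le_normalizer hTZ
  refine z_core (QuotientGroup.mk' (Z.subgroupOf (K ⊔ R))) (QuotientGroup.mk'_surjective _) ?_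
    hp rfl hRK hsol hodd hRc hcop hZK hKZ hRZ hFZ
  intro t
  rw [QuotientGroup.mk'_apply, QuotientGroup.eq_one_iff, Subgroup.mem_subgroupOf]

end Cfsg.Agent.Lib.Helper2.BG11
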