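import Cfsg.Agent.Lib.Helper2.BSWSCa
import Cfsg.Agent.Lib.Helper87.BSWG2
import Cfsg.Agent.Lib.Helper92.BSWG1

/-!
# S3282, piece SC: the structure-constant equation
-/

set_option autoImplicit false

namespace Cfsg.Agent.Lib.Helper46.BSW

open Cfsg Cfsg.Agent.Lib.Helper4
open scoped ComplexConjugate

universe u

variable {G : Type u} [Group G]

/-! ### Piece SC : the structure-constant equation -/
theorem sc_eq [Fintype G] [Fintype (IrrCharacter G)] {t s : G} {K : Subgroup G}
    (h : Setup t s K) [Fintype (IrrCharacter K)] (c : IrrCharacter K → IrrCharacter G → ℤ)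
    (hc : IndData K c) (l : IrrCharacter K) (hl : l ≠ trivIrr) :
    (∑ χ : IrrCharacter G, (χ : G → ℂ) t ^ 2 * (c l χ : ℂ) / (χ : G → ℂ) 1) *
      ((Subgroup.centralizer ({t} : Set G)).index : ℂ) = 2 * (Nat.card K : ℂ) ^ 2 :=
  Cfsg.Agent.Lib.Helper2.BSWSC.sc_eq_of h.hKab (fun z hz hz1 => setup_pairs h z hz hz1)
    (setup_card_cent h) c hc l hl

end Cfsg.Agent.Lib.Helper46.BSW
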