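import Cfsg.Agent.Lib.Helper46.BSW0
import Cfsg.Agent.Lib.Helper90.BSWAB
import Cfsg.Agent.Lib.Helper82.CharCore

/-!
# S3282, piece SC (core): the structure-constant equation

`sc_eq_of` is the statement of `sc_eq` with the two inputs from the pieces G1
(`setup_card_cent`) and G2 (`setup_pairs`) taken as hypotheses.
-/

set_option autoImplicit false

namespace Cfsg.Agent.Lib.Helper2.BSWSC

open Cfsg Cfsg.Agent.Lib.Helper4 Cfsg.Agent.Lib.Helper46.BSW
open scoped ComplexConjugate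

universe u

variable {G : Type u} [Group G]

open scoped Classical in
theorem sc_eq_of [Fintype G] [Fintype (IrrCharacter G)] {t : G} {K : Subgroup G}
    (hKab : ∀ a ∈ K, ∀ b ∈ K, a * b = b * a)
    (hpairs : ∀ z : G, z ∈ K → z ≠ 1 →
      ∑ g : G, ∑ h' : G, (if IsConj t g then (1 : ℂ) else 0) *
          (if IsConj t h' then (1 : ℂ) else 0)
        * (if g * h' * z = 1 then (1 : ℂ) else 0) = (Nat.card K : ℂ))
    (hcard : Nat.card (Subgroup.centralizer ({t} : Set G)) = 2 * Nat.card K)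
    [Fintype (IrrCharacter K)] (c : IrrCharacter K → IrrCharacter G → ℤ)
    (hc : IndData K c) (l : IrrCharacter K) (hl : l ≠ trivIrr) :
    (∑ χ : IrrCharacter G, (χ : G → ℂ) t ^ 2 * (c l χ : ℂ) / (χ : G → ℂ) 1) *
      ((Subgroup.centralizer ({t} : Set G)).index : ℂ) = 2 * (Nat.card K : ℂ) ^ 2 := by
  have hn0 : ((Subgroup.centralizer ({t} : Set G)).index : ℂ) ≠ 0 := by
    exact_mod_cast Subgroup.index_ne_zero_of_finite
  have hG : (Nat.card G : ℂ) = 2 * (Nat.card K : ℂ) *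
      ((Subgroup.centralizer ({t} : Set G)).index : ℂ) := by
    rw [← Subgroup.card_mul_index (Subgroup.centralizer ({t} : Set G)), hcard]
    push_cast
    ring
  generalize hn : ((Subgroup.centralizer ({t} : Set G)).index : ℂ) = n at hn0 hG ⊢
  generalize hk : (Nat.card K : ℂ) = k at hG hpairs ⊢
  -- step 1 : the class multiplication constants
  have h1 : ∀ z : G, z ∈ K → z ≠ 1 →
      (∑ χ : IrrCharacter G, (χ : G → ℂ) t ^ 2 / (χ : G → ℂ) 1 * (χ : G → ℂ) z) * n
        = 2 * k ^ 2 := by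
    intro z hz hz1
    have h2 := Cfsg.Agent.Lib.Helper82.class_constant t t z
    rw [hpairs z hz hz1, hG, hn] at h2
    have h3 : ∑ χ : IrrCharacter G, (n * (χ : G → ℂ) t) * (n * (χ : G → ℂ) t)
          * (χ : G → ℂ) z / (χ : G → ℂ) 1
        = n * ((∑ χ : IrrCharacter G, (χ : G → ℂ) t ^ 2 / (χ : G → ℂ) 1 * (χ : G → ℂ) z) * n) := by
      rw [Finset.sum_mul, Finset.mul_sum]
      refine Finset.sum_congr rfl fun χ _ => ?_
      ring
    rw [h3] at h2
    have h4 : n * (2 * k ^ 2)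
        = n * ((∑ χ : IrrCharacter G, (χ : G → ℂ) t ^ 2 / (χ : G → ℂ) 1 * (χ : G → ℂ) z) * n) := by
      rw [← h2]
      ring
    exact (mul_left_cancel₀ hn0 h4).symm
  -- step 2 : insert the Fourier expansion on `K`
  obtain ⟨B, hBdef⟩ : ∃ B : IrrCharacter K → ℂ, ∀ l' : IrrCharacter K, B l' =
      (∑ χ : IrrCharacter G, (χ : G → ℂ) t ^ 2 / (χ : G → ℂ) 1 * (c l' χ : ℂ)) * n :=
    ⟨_, fun _ => rfl⟩
  have hB : ∀ z : K, z ≠ 1 →
      ∑ l' : IrrCharacter K, B l' * (l' : K → ℂ) z = -(2 * k ^ 2) := by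
    intro z hz
    have hz' : (z : G) ≠ 1 := fun h => hz (Subtype.ext h)
    rw [← h1 z z.2 hz']
    have h3 : ∀ χ : IrrCharacter G,
        (χ : G → ℂ) z = - ∑ l' : IrrCharacter K, (c l' χ : ℂ) * (l' : K → ℂ) z :=
      fun χ => hc.fourier χ z hz
    calc ∑ l' : IrrCharacter K, B l' * (l' : K → ℂ) z
        = ∑ l' : IrrCharacter K, ∑ χ : IrrCharacter G,
            (χ : G → ℂ) t ^ 2 / (χ : G → ℂ) 1 * ((c l' χ : ℂ) * (l' : K → ℂ) z) * n := by
          refine Finset.sum_congr rfl fun l' _ => ?_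
          rw [hBdef, Finset.sum_mul, Finset.sum_mul]
          refine Finset.sum_congr rfl fun χ _ => ?_
          ring
      _ = ∑ χ : IrrCharacter G, ∑ l' : IrrCharacter K,
            (χ : G → ℂ) t ^ 2 / (χ : G → ℂ) 1 * ((c l' χ : ℂ) * (l' : K → ℂ) z) * n :=
          Finset.sum_comm
      _ = ∑ χ : IrrCharacter G,
            -((χ : G → ℂ) t ^ 2 / (χ : G → ℂ) 1 * (χ : G → ℂ) z * n) := by
          refine Finset.sum_congr rfl fun χ _ => ?_
          rw [h3 χ, ← Finset.sum_mul, ← Finset.mul_sum]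
          ring
      _ = -((∑ χ : IrrCharacter G,
            (χ : G → ℂ) t ^ 2 / (χ : G → ℂ) 1 * (χ : G → ℂ) z) * n) := by
          rw [Finset.sum_neg_distrib, Finset.sum_mul]
  -- step 3 : linear independence of the characters of `K`
  have hab : ∀ a b : K, a * b = b * a := fun a b => Subtype.ext (hKab a a.2 b b.2)
  have hBtriv : B trivIrr = 0 := by
    rw [hBdef]
    simp [hc.triv_row]
  obtain ⟨β, hβdef⟩ : ∃ β : IrrCharacter K → ℂ, ∀ l' : IrrCharacter K, β l' =
      B l' - 2 * k ^ 2 + (if l' = trivIrr then 2 * k ^ 2 else 0) := ⟨_, fun _ => rfl⟩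
  have hβ0 : β trivIrr = 0 := by
    rw [hβdef, hBtriv]
    simp
  have hβ : ∀ x : K, x ≠ 1 → ∑ l' : IrrCharacter K, β l' * (l' : K → ℂ) x = 0 := by
    intro x hx
    have e1 : ∑ l' : IrrCharacter K, β l' * (l' : K → ℂ) x
        = ∑ l' : IrrCharacter K, B l' * (l' : K → ℂ) x
          - 2 * k ^ 2 * ∑ l' : IrrCharacter K, (l' : K → ℂ) x
          + ∑ l' : IrrCharacter K, (if l' = trivIrr then 2 * k ^ 2 else 0) * (l' : K → ℂ) x := by
      rw [Finset.mul_sum, ← Finset.sum_sub_distrib, ← Finset.sum_add_distrib]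
      refine Finset.sum_congr rfl fun l' _ => ?_
      rw [hβdef]
      ring
    have e2 : ∑ l' : IrrCharacter K,
        (if l' = trivIrr then 2 * k ^ 2 else 0) * (l' : K → ℂ) x = 2 * k ^ 2 := by
      rw [Finset.sum_eq_single (trivIrr : IrrCharacter K)]
      · rw [if_pos rfl]
        show 2 * k ^ 2 * (1 : ℂ) = _
        rw [mul_one]
      · intro b _ hb
        rw [if_neg hb, zero_mul]
      · intro hb
        exact absurd (Finset.mem_univ _) hb
    rw [e1, hB x hx, ab_sum hab x hx, e2]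
    ring
  have h5 := ab_indep hab β hβ0 hβ l
  rw [hβdef, if_neg hl, add_zero] at h5
  have hBl : B l = 2 * k ^ 2 := sub_eq_zero.1 h5
  rw [← hBl, hBdef]
  congr 1
  refine Finset.sum_congr rfl fun χ _ => ?_
  ring

end Cfsg.Agent.Lib.Helper2.BSWSC
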