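import Cfsg.Agent.S5294
import Cfsg.Agent.Lib.Helper91.KLBasic
import Cfsg.Agent.Lib.Helper87.Fusion17

/-!
# From control of the centre to a direct factor of `Z(S)`

If `X` is a subgroup of `S` normalized by `S` and containing `Z(S)`, and the normalizer system
`N_F(X)` has the same centre as `F`, then `Z(F)` is a direct factor of `Z(S)` (apply the
direct-factor statement for systems whose core contains `Z(S)` to `N_F(X)`).
-/

set_option autoImplicit false

namespace Cfsg.Agent.Lib.Helper2.DirFac

open Cfsg Cfsg.FusionSystem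

universe u

variable {Ω : Type u} [Group Ω] {S : Subgroup Ω}

theorem normalizerIn_eq_self {X : Subgroup Ω}
    (hXn : S ≤ Subgroup.normalizer (X : Set Ω)) : normalizerIn S X = S :=
  inf_eq_left.mpr hXn

theorem isFullyNormalized_of_normal [Finite S] (F : FusionSystem S) {X : Subgroup Ω} (hXS : X ≤ S)
    (hXn : S ≤ Subgroup.normalizer (X : Set Ω)) : F.IsFullyNormalized X := by
  refine ⟨hXS, fun Q _ => ?_⟩
  rw [normalizerIn_eq_self hXn]
  exact Nat.card_le_card_of_injective (Subgroup.inclusion (inf_le_left : normalizerIn S Q ≤ S))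
    (Subgroup.inclusion_injective _)

/-- If the centre of `N_F(X)` is the centre of `F`, for a subgroup `X` normal in `S` containing
`Z(S)`, then `Z(F)` is a direct factor of `Z(S)`. -/
theorem directFactor_of_center_eq [Finite S] (p : ℕ) [Fact p.Prime] (hS : IsPGroup p S)
    (F : FusionSystem S) (hF : F.IsSaturated p) (X : Subgroup Ω) (hXS : X ≤ S)
    (hXn : S ≤ Subgroup.normalizer (X : Set Ω))
    (hZX : S ⊓ Subgroup.centralizer (S : Set Ω) ≤ X)
    (hcen : ∀ N : FusionSystem (normalizerIn S X), F.IsNormalizerSystem X N →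
      N.center = F.center) :
    ∃ K : Subgroup Ω, K ≤ (S ⊓ Subgroup.centralizer (S : Set Ω)) ∧ F.center ⊓ K = ⊥ ∧
      F.center ⊔ K = (S ⊓ Subgroup.centralizer (S : Set Ω)) := by
  have hEq : normalizerIn S X = S := normalizerIn_eq_self hXn
  have hN := Cfsg.Agent.Lib.Helper90.normalizerSys_isNormalizerSystem (F := F) hXS
  have hfin : Finite ↥(normalizerIn S X) := Cfsg.Agent.Lib.Helper90.finite_of_le inf_le_left
  have hNS : IsPGroup p ↥(normalizerIn S X) :=
    hS.of_injective (Subgroup.inclusion (inf_le_left : normalizerIn S X ≤ S))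
      (Subgroup.inclusion_injective _)
  have hsat := Cfsg.Agent.Lib.Helper87.normalizerSystem_saturated p hS F hF X
    (isFullyNormalized_of_normal F hXS hXn) _ hN
  have hcore : X ≤ (Cfsg.Agent.Lib.Helper90.normalizerSys F X hXS).core :=
    Cfsg.Agent.Lib.Helper91.le_core (Cfsg.Agent.Lib.Helper91.isNormal_normalizerSys hXS hN)
  have hZ : normalizerIn S X ⊓ Subgroup.centralizer ((normalizerIn S X : Subgroup Ω) : Set Ω) ≤
      (Cfsg.Agent.Lib.Helper90.normalizerSys F X hXS).core := by
    refine le_trans ?_ hcore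
    rw [hEq]
    exact hZX
  obtain ⟨K, hK1, hK2, hK3⟩ := Cfsg.Agent.S5294.result p hNS _ hsat hZ
  rw [hcen _ hN] at hK2 hK3
  rw [hEq] at hK1 hK3
  exact ⟨K, hK1, hK2, hK3⟩

end Cfsg.Agent.Lib.Helper2.DirFac
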