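import Mathlib
import Cfsg.Agent.Lib.Helper61.F15Defs
import Cfsg.Agent.S5354

set_option autoImplicit false

/-! Piece P13b of S1615 (helper2 for helper61): a non-trivial 3-element centralizing `e` and all
of `D_e` cannot exist when all `|D_b|` are divisible by 3. -/

namespace Cfsg.Agent.Lib.Helper2.F15

open Cfsg Cfsg.Agent.Lib.Helper11 Cfsg.Agent.Lib.Helper61.F15

variable {G : Type*} [Group G] {D : Set G}

theorem no_caseB [Finite G] (hsol : ∀ N : Subgroup G, N.Normal → Group.IsSolvable ↥N → N = ⊥)
    (hP : TTPrim D) (hcoc : Coc D) (h3 : ∀ b ∈ D, 3 ∣ (Dn D b).ncard) {e z : G} (he : e ∈ D)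
    (hne : (Dn D e).Nonempty) (hz1 : z ≠ 1) (hz3 : ∃ n : ℕ, z ^ (3 ^ n) = 1) (hze : Commute z e)
    (hzD : ∀ p ∈ Dn D e, Commute z p) : False := by
  classical
  have hD := hP.1
  haveI : Fact (Nat.Prime 3) := ⟨Nat.prime_three⟩
  -- the centre is trivial
  have hcen : Subgroup.center G = ⊥ := by
    apply hsol _ inferInstance
    exact isSolvable_of_comm (fun a b => Subtype.ext (Subgroup.mem_center_iff.mp b.2 a.1))
  -- `O_3(G)` is trivial
  have hp3 : pCore 3 G ≤ Subgroup.center G := by
    unfold pCore
    apply sSup_le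
    rintro N ⟨hN, hpN⟩
    have h1 : Group.IsNilpotent N := hpN.isNilpotent
    have h2 : N = ⊥ := hsol N hN inferInstance
    rw [h2]
    exact bot_le
  have hD2 : ∃ a ∈ D, ∃ b ∈ D, a ≠ b := by
    obtain ⟨b, hb, hbe, -⟩ := hP.2.2.1 e he
    exact ⟨b, hb, e, he, hbe⟩
  -- (i)
  have hi : ∀ a ∈ D, ¬ Commute a e → ¬ Commute z a := by
    intro a ha hae hza
    obtain ⟨H, hHdef⟩ : ∃ H : Subgroup G,
        H = Subgroup.closure ({y : G | y ∈ D ∧ Commute e y} ∪ {a}) := ⟨_, rfl⟩
    have hgen : ({y : G | y ∈ D ∧ Commute e y} ∪ {a}) ⊆ {d : G | d ∈ D ∧ d ∈ H} := by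
      rintro y (hy | hy)
      · exact ⟨hy.1, by rw [hHdef]; exact Subgroup.subset_closure (Or.inl hy)⟩
      · rw [Set.mem_singleton_iff] at hy
        rw [hy]
        exact ⟨ha, by rw [hHdef]; exact Subgroup.subset_closure (Or.inr rfl)⟩
    have hH : IsDSubgroup D H := by
      apply le_antisymm
      · apply (Subgroup.closure_le _).2
        rintro d ⟨-, hd⟩
        exact hd
      · conv_lhs => rw [hHdef]
        exact Subgroup.closure_mono hgen
    have hle : Subgroup.closure {y : G | y ∈ D ∧ Commute e y} ≤ H := by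
      rw [hHdef]
      exact Subgroup.closure_mono Set.subset_union_left
    have hzH : ∀ x ∈ H, Commute z x := by
      intro x hx
      rw [hHdef] at hx
      induction hx using Subgroup.closure_induction with
      | mem y hy =>
        rcases hy with hy | hy
        · by_cases hye : y = e
          · rw [hye]; exact hze
          · exact hzD y ⟨hy.1, hye, hy.2⟩
        · rw [Set.mem_singleton_iff] at hy
          rw [hy]; exact hza
      | one => exact Commute.one_right z
      | mul x y _ _ ihx ihy => exact ihx.mul_right ihy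
      | inv x _ ih => exact ih.inv_right
    rcases Cfsg.Agent.S5354.max_dsub hP hp3 hD2 he hH hle with h | h
    · have haH : a ∈ H := by rw [hHdef]; exact Subgroup.subset_closure (Or.inr rfl)
      rw [h] at haH
      have hall : ∀ x ∈ Subgroup.closure {y : G | y ∈ D ∧ Commute e y}, Commute e x := by
        intro x hx
        induction hx using Subgroup.closure_induction with
        | mem y hy => exact hy.2
        | one => exact Commute.one_right e
        | mul x y _ _ ihx ihy => exact ihx.mul_right ihy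
        | inv x _ ih => exact ih.inv_right
      exact hae (hall a haH).symm
    · have hzc : z ∈ Subgroup.center G := by
        rw [Subgroup.mem_center_iff]
        intro g
        exact (hzH g (by rw [h]; trivial)).symm.eq
      rw [hcen, Subgroup.mem_bot] at hzc
      exact hz1 hzc
  -- (ii)
  obtain ⟨b, hbD, hbe, hebc⟩ := hne
  have hzb : Commute z b := hzD b ⟨hbD, hbe, hebc⟩
  obtain ⟨n, hn⟩ := hz3
  have hmem : ∀ r : Dn D b, z * (r : G) * z⁻¹ ∈ Dn D b := by
    rintro ⟨r, hrD, hrb, hbr⟩
    refine ⟨tt_conj_mem hD hrD z, ?_, ?_⟩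
    · intro h
      apply hrb
      have : z * r * z⁻¹ = z * b * z⁻¹ := by rw [h, hzb.eq, mul_inv_cancel_right]
      exact mul_left_cancel (mul_right_cancel this)
    · have h1 : Commute b z := hzb.symm
      exact (h1.mul_right hbr).mul_right h1.inv_right
  let f : Function.End (Dn D b) := fun r => ⟨z * (r : G) * z⁻¹, hmem r⟩
  have hfpow : ∀ (k : ℕ) (r : Dn D b), (((f ^ k) r : Dn D b) : G) = z ^ k * (r : G) * (z ^ k)⁻¹ := by
    intro k
    induction k with
    | zero =>
      intro r
      rw [pow_zero, pow_zero, one_mul, inv_one, mul_one]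
      rfl
    | succ k ih =>
      intro r
      rw [pow_succ]
      show (((f ^ k) (f r) : Dn D b) : G) = _
      rw [ih (f r)]
      show z ^ k * (z * (r : G) * z⁻¹) * (z ^ k)⁻¹ = _
      rw [pow_succ]
      group
  have hf1 : f ^ 3 ^ n = 1 := by
    funext r
    apply Subtype.ext
    rw [hfpow, hn, one_mul, inv_one, mul_one]
    rfl
  haveI : Fintype (Dn D b) := Fintype.ofFinite _
  have hmod := Equiv.Perm.card_fixedPoints_modEq (p := 3) (n := n) hf1
  have heb : e ∈ Dn D b := ⟨he, fun h => hbe h.symm, hebc.symm⟩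
  have hfix : ∀ r : Dn D b, f r = r → r = ⟨e, heb⟩ := by
    rintro ⟨r, hrD, hrb, hbr⟩ hr
    apply Subtype.ext
    show r = e
    by_contra hre
    have hzr : Commute z r := by
      have h1 : z * r * z⁻¹ = r := congrArg Subtype.val hr
      show z * r = r * z
      calc z * r = (z * r * z⁻¹) * z := by group
        _ = r * z := by rw [h1]
    have hnre : ¬ Commute r e := by
      intro hc
      exact hcoc r hrD e he b hbD hre (fun h => hrb h.symm) hbe hc hbr hebc.symm
    exact hi r hrD hnre hzr
  have hcard : Nat.card (Function.fixedPoints f) = 1 := by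
    rw [Nat.card_eq_one_iff_unique]
    constructor
    · constructor
      rintro ⟨x, hx⟩ ⟨y, hy⟩
      apply Subtype.ext
      show x = y
      rw [hfix x hx, hfix y hy]
    · refine ⟨⟨⟨e, heb⟩, ?_⟩⟩
      show f ⟨e, heb⟩ = ⟨e, heb⟩
      apply Subtype.ext
      show z * e * z⁻¹ = e
      rw [hze.eq, mul_inv_cancel_right]
  rw [← Nat.card_eq_fintype_card, ← Nat.card_eq_fintype_card, hcard] at hmod
  have h3b := h3 b hbD
  rw [← Nat.card_coe_set_eq] at h3b
  have h0 : Nat.card (Dn D b) ≡ 0 [MOD 3] := (Nat.modEq_zero_iff_dvd).2 h3b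
  have := h0.symm.trans hmod
  exact absurd this (by decide)
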