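import Mathlib

/-!
# Piece FL of S2174 (helper25's project): non-conjugacy certificate inside an invariant subspace
-/

set_option autoImplicit false
set_option linter.unusedSectionVars false

namespace Cfsg.Agent.Lib.Helper25

theorem inv_not_conj_of_cert_sub {ι : Type*} [Fintype ι] [DecidableEq ι] {F : Type*} [Field F]
    (M₁ M₂ P : Matrix ι ι F) (hP : IsUnit P.det) (hconj : P * M₁ = M₂ * P)
    (W : Submodule F (ι → F)) (hPW : ∀ x ∈ W, P.mulVec x ∈ W) (a b : ℕ)
    (v : Fin a → ι → F) (hv : LinearIndependent F v) (hvW : ∀ j, v j ∈ W)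
    (hfix : ∀ j, M₁.mulVec (v j) = v j)
    (w : Fin b → ι → F) (hwW : ∀ j, w j ∈ W)
    (hw : LinearIndependent F (fun j => M₂.mulVec (w j) - w j))
    (hab : Module.finrank F W < a + b) : False := by
  classical
  obtain ⟨f, hf⟩ : ∃ f : (ι → F) →ₗ[F] (ι → F), ∀ x, f x = M₂.mulVec x - x := by
    refine ⟨Matrix.mulVecLin (M₂ - 1), fun x => ?_⟩
    rw [Matrix.mulVecLin_apply, Matrix.sub_mulVec, Matrix.one_mulVec]
  have hPinj : Function.Injective P.mulVec := by
    rw [Matrix.mulVec_injective_iff_isUnit, Matrix.isUnit_iff_isUnit_det]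
    exact hP
  have hPv : LinearIndependent F (fun j => P.mulVec (v j)) := by
    have h1 : LinearMap.ker (Matrix.mulVecLin P) = ⊥ := by
      rw [LinearMap.ker_eq_bot]
      intro x y hxy
      rw [Matrix.mulVecLin_apply, Matrix.mulVecLin_apply] at hxy
      exact hPinj hxy
    exact hv.map' (Matrix.mulVecLin P) h1
  have hPvW : LinearIndependent F (fun j => (⟨P.mulVec (v j), hPW _ (hvW j)⟩ : W)) :=
    LinearIndependent.of_comp W.subtype hPv
  have hker : a ≤ Module.finrank F (LinearMap.ker (f.domRestrict W)) := by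
    have h1 : Submodule.span F (Set.range (fun j => (⟨P.mulVec (v j), hPW _ (hvW j)⟩ : W))) ≤
        LinearMap.ker (f.domRestrict W) := by
      rw [Submodule.span_le]
      rintro _ ⟨j, rfl⟩
      have h3 : M₂.mulVec (P.mulVec (v j)) = P.mulVec (v j) := by
        rw [Matrix.mulVec_mulVec, ← hconj, ← Matrix.mulVec_mulVec, hfix]
      have h4 : f (P.mulVec (v j)) = 0 := by rw [hf, h3, sub_self]
      exact LinearMap.mem_ker.mpr h4
    have h2 := Submodule.finrank_mono h1
    rw [finrank_span_eq_card hPvW, Fintype.card_fin] at h2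
    exact h2
  have hrange : b ≤ Module.finrank F (LinearMap.range (f.domRestrict W)) := by
    have h1 : Submodule.span F (Set.range (fun j => M₂.mulVec (w j) - w j)) ≤
        LinearMap.range (f.domRestrict W) := by
      rw [Submodule.span_le]
      rintro _ ⟨j, rfl⟩
      exact ⟨⟨w j, hwW j⟩, hf (w j)⟩
    have h2 := Submodule.finrank_mono h1
    rw [finrank_span_eq_card hw, Fintype.card_fin] at h2
    exact h2
  have hrn := LinearMap.finrank_range_add_finrank_ker (f.domRestrict W)
  omega

end Cfsg.Agent.Lib.Helper25
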