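import Mathlib

/-!
# PG-ABS (for S3663, helper7): element orders in a group with an abelian normal subgroup of
exponent 5 on which an element of order 13 acts fixed point freely
-/

set_option autoImplicit false
set_option maxHeartbeats 400000

namespace Cfsg.Agent.Lib.Helper2.PG

/-- `(c a)^m (c^m)⁻¹ ∈ V` -/
theorem pow_mul_inv_mem {α : Type*} [Group α] (G V : Subgroup α)
    (hnorm : ∀ g ∈ G, ∀ a ∈ V, g * a * g⁻¹ ∈ V) (c : α) (hc : c ∈ G) (a : α) (ha : a ∈ V)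
    (m : ℕ) : (c * a) ^ m * (c ^ m)⁻¹ ∈ V := by
  induction m with
  | zero => simp [V.one_mem]
  | succ m ih =>
    have h1 : (c * a) ^ (m + 1) * (c ^ (m + 1))⁻¹ =
        ((c * a) ^ m * (c ^ m)⁻¹) * (c ^ m * (c * a * c⁻¹) * (c ^ m)⁻¹) := by
      rw [pow_succ, pow_succ]; group
    rw [h1]
    exact V.mul_mem ih (hnorm _ (G.pow_mem hc m) _ (hnorm c hc a ha))

/-- the partial norm `(v c₀)^k c₀^{-k} = ∏_{i<k} c₀^i v c₀^{-i}` -/
def nrm {α : Type*} [Group α] (c0 : α) (k : ℕ) (v : α) : α := (v * c0) ^ k * (c0 ^ k)⁻¹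

theorem nrm_succ {α : Type*} [Group α] (c0 : α) (k : ℕ) (v : α) :
    nrm c0 (k + 1) v = nrm c0 k v * (c0 ^ k * v * (c0 ^ k)⁻¹) := by
  unfold nrm
  rw [pow_succ, pow_succ]; group

theorem nrm_zero {α : Type*} [Group α] (c0 : α) (v : α) : nrm c0 0 v = 1 := by
  simp [nrm]

theorem nrm_one {α : Type*} [Group α] (c0 : α) (k : ℕ) : nrm c0 k 1 = 1 := by
  simp [nrm]

theorem nrm_mem {α : Type*} [Group α] (G V : Subgroup α)
    (hnorm : ∀ g ∈ G, ∀ a ∈ V, g * a * g⁻¹ ∈ V) (c0 : α) (hc0G : c0 ∈ G) (k : ℕ) (v : α)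
    (hv : v ∈ V) : nrm c0 k v ∈ V := by
  induction k with
  | zero => rw [nrm_zero]; exact V.one_mem
  | succ k ih => rw [nrm_succ]; exact V.mul_mem ih (hnorm _ (G.pow_mem hc0G k) _ hv)

theorem nrm_mul {α : Type*} [Group α] (G V : Subgroup α)
    (hnorm : ∀ g ∈ G, ∀ a ∈ V, g * a * g⁻¹ ∈ V) (hcomm : ∀ a ∈ V, ∀ b ∈ V, a * b = b * a)
    (c0 : α) (hc0G : c0 ∈ G) (k : ℕ) (v w : α) (hv : v ∈ V) (hw : w ∈ V) :
    nrm c0 k (v * w) = nrm c0 k v * nrm c0 k w := by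
  induction k with
  | zero => simp [nrm_zero]
  | succ k ih =>
    rw [nrm_succ, nrm_succ, nrm_succ, ih]
    have hX : c0 ^ k * v * (c0 ^ k)⁻¹ ∈ V := hnorm _ (G.pow_mem hc0G k) _ hv
    have hcm : Commute (nrm c0 k w) (c0 ^ k * v * (c0 ^ k)⁻¹) :=
      hcomm _ (nrm_mem G V hnorm c0 hc0G k w hw) _ hX
    have h1 : c0 ^ k * (v * w) * (c0 ^ k)⁻¹ =
        (c0 ^ k * v * (c0 ^ k)⁻¹) * (c0 ^ k * w * (c0 ^ k)⁻¹) := by group
    rw [h1]
    exact hcm.mul_mul_mul_comm _ _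

theorem nrm_eq_one {α : Type*} [Group α] (G V : Subgroup α) (S : Set α)
    (hVS : V = Subgroup.closure S)
    (hnorm : ∀ g ∈ G, ∀ a ∈ V, g * a * g⁻¹ ∈ V) (hcomm : ∀ a ∈ V, ∀ b ∈ V, a * b = b * a)
    (c0 : α) (hc0G : c0 ∈ G) (hN : ∀ s ∈ S, (s * c0) ^ 13 = c0 ^ 13) :
    ∀ v ∈ V, nrm c0 13 v = 1 := by
  have key : ∀ v ∈ Subgroup.closure S, nrm c0 13 v = 1 := by
    intro v hv
    refine Subgroup.closure_induction (p := fun v _ => nrm c0 13 v = 1) ?_ ?_ ?_ ?_ hv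
    · intro s hs
      unfold nrm
      rw [hN s hs, mul_inv_cancel]
    · exact nrm_one c0 13
    · intro x y hx hy ihx ihy
      have hxV : x ∈ V := by rw [hVS]; exact hx
      have hyV : y ∈ V := by rw [hVS]; exact hy
      show nrm c0 13 (x * y) = 1
      rw [nrm_mul G V hnorm hcomm c0 hc0G 13 x y hxV hyV, ihx, ihy, mul_one]
    · intro x hx ih
      have hxV : x ∈ V := by rw [hVS]; exact hx
      have h1 := nrm_mul G V hnorm hcomm c0 hc0G 13 x⁻¹ x (V.inv_mem hxV) hxV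
      rw [inv_mul_cancel, ih, mul_one, nrm_one] at h1
      exact h1.symm
  intro v hv
  exact key v (by rw [← hVS]; exact hv)

theorem fpf {α : Type*} [Group α] (G V : Subgroup α) (S : Set α)
    (hVS : V = Subgroup.closure S)
    (hnorm : ∀ g ∈ G, ∀ a ∈ V, g * a * g⁻¹ ∈ V) (hcomm : ∀ a ∈ V, ∀ b ∈ V, a * b = b * a)
    (hexp : ∀ v ∈ V, v ^ 5 = 1)
    (c0 : α) (hc0G : c0 ∈ G) (hN : ∀ s ∈ S, (s * c0) ^ 13 = c0 ^ 13) :
    ∀ v ∈ V, c0 * v = v * c0 → v = 1 := by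
  intro v hv hcv
  have h1 := nrm_eq_one G V S hVS hnorm hcomm c0 hc0G hN v hv
  unfold nrm at h1
  have hc : Commute v c0 := hcv.symm
  rw [hc.mul_pow, mul_inv_cancel_right] at h1
  have h5 := hexp v hv
  have h26 : v ^ (25 + 1) = 1 := by
    rw [show (25 + 1 : ℕ) = 13 * 2 from rfl, pow_mul, h1, one_pow]
  have h25 : v ^ 25 = 1 := by rw [show (25 : ℕ) = 5 * 5 from rfl, pow_mul, h5, one_pow]
  rw [pow_succ, h25, one_mul] at h26
  exact h26

theorem pg_orders {α : Type*} [Group α] [Finite α] (G V : Subgroup α) (S : Set α)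
    (hVS : V = Subgroup.closure S)
    (hVG : V ≤ G)
    (hnorm : ∀ g ∈ G, ∀ a ∈ V, g * a * g⁻¹ ∈ V)
    (hcomm : ∀ a ∈ V, ∀ b ∈ V, a * b = b * a)
    (hexp : ∀ v ∈ V, v ^ 5 = 1)
    (hdec : ∀ g ∈ G, ∃ c ∈ G, ∃ a ∈ V, g = c * a ∧
      (c ^ 4 ∈ V ∨ c ^ 10 ∈ V ∨ c ^ 13 ∈ V ∨ c ^ 15 ∈ V))
    (c0 : α) (hc0G : c0 ∈ G) (hc0 : orderOf c0 = 13)
    (hN : ∀ s ∈ S, (s * c0) ^ 13 = c0 ^ 13)
    (hcard : ¬ 13 ^ 2 ∣ Nat.card G) :
    ∀ g ∈ G, orderOf g ∣ 20 ∨ orderOf g ∣ 50 ∨ orderOf g ∣ 75 ∨ orderOf g ∣ 13 := by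
  haveI : Fact (Nat.Prime 13) := ⟨by norm_num⟩
  intro g hg
  obtain ⟨c, hcG, a, haV, hgeq, hcase⟩ := hdec g hg
  have hmem : ∀ k : ℕ, c ^ k ∈ V → g ^ k ∈ V := by
    intro k hk
    have := V.mul_mem (pow_mul_inv_mem G V hnorm c hcG a haV k) hk
    rw [inv_mul_cancel_right] at this
    rw [hgeq]
    exact this
  have hdvd : ∀ k : ℕ, g ^ k ∈ V → orderOf g ∣ k * 5 := by
    intro k hk
    apply orderOf_dvd_of_pow_eq_one
    rw [pow_mul]
    exact hexp _ hk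
  rcases hcase with h | h | h | h
  · left; exact hdvd 4 (hmem 4 h)
  · right; left; exact hdvd 10 (hmem 10 h)
  · have hz : g ^ 13 ∈ V := hmem 13 h
    by_cases hz1 : g ^ 13 = 1
    · right; right; right; exact orderOf_dvd_of_pow_eq_one hz1
    by_cases hx1 : g ^ 5 = 1
    · left; exact (orderOf_dvd_of_pow_eq_one hx1).trans (by norm_num)
    exfalso
    have hx13 : (g ^ 5) ^ 13 = 1 := by
      rw [← pow_mul, show (5 * 13 : ℕ) = 13 * 5 from rfl, pow_mul]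
      exact hexp _ hz
    have hox : orderOf (g ^ 5) = 13 := orderOf_eq_prime hx13 hx1
    -- Sylow 13-subgroups of `G`
    have h13 : 13 ∣ Nat.card ↥G := by
      have := orderOf_dvd_natCard (⟨c0, hc0G⟩ : ↥G)
      rwa [Subgroup.orderOf_mk, hc0] at this
    have hpos : Nat.card ↥G ≠ 0 := Nat.card_pos.ne'
    have hfac : (Nat.card ↥G).factorization 13 = 1 := by
      have ha := (Nat.Prime.pow_dvd_iff_le_factorization (by norm_num : Nat.Prime 13) hpos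
        (k := 1)).mp (by rw [pow_one]; exact h13)
      have hb : ¬ 2 ≤ (Nat.card ↥G).factorization 13 := fun h2 =>
        hcard ((Nat.Prime.pow_dvd_iff_le_factorization (by norm_num : Nat.Prime 13) hpos).mpr h2)
      omega
    have hP : Nat.card (Subgroup.zpowers (⟨g ^ 5, G.pow_mem hg 5⟩ : ↥G)) =
        13 ^ (Nat.card ↥G).factorization 13 := by
      rw [Nat.card_zpowers, Subgroup.orderOf_mk, hox, hfac, pow_one]
    have hQ : Nat.card (Subgroup.zpowers (⟨c0, hc0G⟩ : ↥G)) =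
        13 ^ (Nat.card ↥G).factorization 13 := by
      rw [Nat.card_zpowers, Subgroup.orderOf_mk, hc0, hfac, pow_one]
    obtain ⟨h, hh⟩ := MulAction.exists_smul_eq ↥G (Sylow.ofCard _ hP) (Sylow.ofCard _ hQ)
    have hmemQ : h * (⟨g ^ 5, G.pow_mem hg 5⟩ : ↥G) * h⁻¹ ∈
        Subgroup.zpowers (⟨c0, hc0G⟩ : ↥G) := by
      have e1 : ((h • Sylow.ofCard _ hP : Sylow 13 ↥G) : Subgroup ↥G) =
          Subgroup.zpowers (⟨c0, hc0G⟩ : ↥G) := by rw [hh, Sylow.coe_ofCard]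
      rw [← e1, Sylow.coe_subgroup_smul, Sylow.coe_ofCard]
      have e2 : h * (⟨g ^ 5, G.pow_mem hg 5⟩ : ↥G) * h⁻¹ =
          MulAut.conj h • (⟨g ^ 5, G.pow_mem hg 5⟩ : ↥G) := rfl
      rw [e2]
      exact Subgroup.smul_mem_pointwise_smul _ _ _ (Subgroup.mem_zpowers _)
    obtain ⟨j, hj⟩ := Subgroup.mem_zpowers_iff.mp hmemQ
    have hj' : c0 ^ j = (h : α) * g ^ 5 * (h : α)⁻¹ := by
      have := congrArg Subtype.val hj
      simpa using this
    obtain ⟨y, hy⟩ : ∃ y : α, y = c0 ^ j := ⟨_, rfl⟩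
    rw [← hy] at hj'
    have hy1 : y ≠ 1 := by
      intro h1
      rw [h1] at hj'
      apply hx1
      have : g ^ 5 = (h : α)⁻¹ * ((h : α) * g ^ 5 * (h : α)⁻¹) * (h : α) := by group
      rw [this, ← hj']; group
    have hy13 : y ^ 13 = 1 := by
      rw [hy, ← zpow_natCast, ← zpow_mul, mul_comm, zpow_mul, zpow_natCast, ← hc0,
        pow_orderOf_eq_one, one_zpow]
    have hoy : orderOf y = 13 := orderOf_eq_prime hy13 hy1
    have hzp : Subgroup.zpowers y = Subgroup.zpowers c0 := by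
      apply Subgroup.eq_of_le_of_card_ge
      · rw [Subgroup.zpowers_le, hy]; exact Subgroup.zpow_mem_zpowers c0 j
      · rw [Nat.card_zpowers, Nat.card_zpowers, hoy, hc0]
    have hc0y : c0 ∈ Subgroup.zpowers y := by rw [hzp]; exact Subgroup.mem_zpowers c0
    obtain ⟨i, hi⟩ := Subgroup.mem_zpowers_iff.mp hc0y
    have hwV : (h : α) * g ^ 13 * (h : α)⁻¹ ∈ V := hnorm _ h.2 _ hz
    have hyw : Commute y ((h : α) * g ^ 13 * (h : α)⁻¹) := by
      show y * ((h : α) * g ^ 13 * (h : α)⁻¹) = (h : α) * g ^ 13 * (h : α)⁻¹ * y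
      rw [hj']; group
    have hcw : c0 * ((h : α) * g ^ 13 * (h : α)⁻¹) = (h : α) * g ^ 13 * (h : α)⁻¹ * c0 := by
      rw [← hi]
      exact (hyw.zpow_left i).eq
    have hw1 := fpf G V S hVS hnorm hcomm hexp c0 hc0G hN _ hwV hcw
    apply hz1
    have : g ^ 13 = (h : α)⁻¹ * ((h : α) * g ^ 13 * (h : α)⁻¹) * (h : α) := by group
    rw [this, hw1]; group
  · right; right; left; exact hdvd 15 (hmem 15 h)

end Cfsg.Agent.Lib.Helper2.PG
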