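import Mathlib

/-!
# Burnside's theorem on marks

Two permutation representations of a finite group `H` on finite sets in which every subgroup has
the same number of fixed points are isomorphic.
-/

set_option autoImplicit false

namespace Cfsg.Agent.Lib.Helper2.Park

variable {H : Type*} [Group H] {X : Type*} {Y : Type*}

/-- The points fixed by the subgroup `K` in the permutation representation `α`. -/
def fixSet (α : H →* Equiv.Perm X) (K : Subgroup H) : Set X := {x | ∀ k ∈ K, α k x = x}

/-- The stabilizer of a point in the permutation representation `α`. -/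
def stab (α : H →* Equiv.Perm X) (x : X) : Subgroup H where
  carrier := {h | α h x = x}
  mul_mem' := by
    intro a b ha hb
    simp only [Set.mem_setOf_eq] at *
    rw [map_mul, Equiv.Perm.mul_apply, hb, ha]
  one_mem' := by simp
  inv_mem' := by
    intro a ha
    simp only [Set.mem_setOf_eq] at *
    rw [map_inv, Equiv.Perm.inv_eq_iff_eq]
    exact ha.symm

theorem mem_stab (α : H →* Equiv.Perm X) (x : X) (h : H) : h ∈ stab α x ↔ α h x = x := Iff.rfl

theorem apply_eq_iff (α : H →* Equiv.Perm X) (x : X) (h h' : H) :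
    α h x = α h' x ↔ h'⁻¹ * h ∈ stab α x := by
  rw [mem_stab, map_mul, map_inv, Equiv.Perm.mul_apply, Equiv.Perm.inv_eq_iff_eq]

theorem marks_aux [Finite H] [Finite X] [Finite Y] [Nonempty Y] (α : H →* Equiv.Perm X)
    (β : H →* Equiv.Perm Y) :
    ∀ (n : ℕ) (A : Set X) (B : Set Y), A.ncard < n →
      (∀ h, ∀ x ∈ A, α h x ∈ A) → (∀ h, ∀ y ∈ B, β h y ∈ B) →
      (∀ K : Subgroup H, (A ∩ fixSet α K).ncard = (B ∩ fixSet β K).ncard) →
      ∃ f : X → Y, Set.BijOn f A B ∧ ∀ h, ∀ x ∈ A, f (α h x) = β h (f x) := by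
  classical
  intro n
  induction n with
  | zero => intro A B hA; omega
  | succ n ih =>
    intro A B hlt hAinv hBinv hm
    have hbotα : fixSet α (⊥ : Subgroup H) = Set.univ := by
      ext x
      simp only [fixSet, Set.mem_setOf_eq, Set.mem_univ, iff_true]
      intro k hk
      rw [Subgroup.mem_bot.mp hk]
      simp
    have hbotβ : fixSet β (⊥ : Subgroup H) = Set.univ := by
      ext x
      simp only [fixSet, Set.mem_setOf_eq, Set.mem_univ, iff_true]
      intro k hk
      rw [Subgroup.mem_bot.mp hk]
      simp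
    by_cases hAe : A = ∅
    · have hB : B = ∅ := by
        have h0 := hm ⊥
        rw [hbotα, hbotβ, Set.inter_univ, Set.inter_univ, hAe, Set.ncard_empty] at h0
        exact (Set.ncard_eq_zero (Set.toFinite B)).mp h0.symm
      subst hAe
      subst hB
      refine ⟨fun _ => Classical.arbitrary Y, Set.bijOn_empty_iff_left.mpr rfl, ?_⟩
      intro h x hx
      exact absurd hx (Set.notMem_empty x)
    · have hAne : A.Nonempty := Set.nonempty_iff_ne_empty.mpr hAe
      -- a subgroup of largest order with a fixed point in `A`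
      obtain ⟨K, hKne, hKmax⟩ : ∃ K : Subgroup H, (A ∩ fixSet α K).Nonempty ∧
          ∀ K' : Subgroup H, (A ∩ fixSet α K').Nonempty → Nat.card K' ≤ Nat.card K := by
        have hne : ({K : Subgroup H | (A ∩ fixSet α K).Nonempty}).Nonempty := by
          refine ⟨⊥, ?_⟩
          show (A ∩ fixSet α ⊥).Nonempty
          rw [hbotα, Set.inter_univ]
          exact hAne
        obtain ⟨K, hK, hmax⟩ := Set.exists_max_image _ (fun K : Subgroup H => Nat.card K)
          (Set.toFinite {K : Subgroup H | (A ∩ fixSet α K).Nonempty}) hne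
        exact ⟨K, hK, fun K' hK' => hmax K' hK'⟩
      obtain ⟨x, hxA, hxK⟩ := hKne
      have hpos : ∀ K' : Subgroup H, (A ∩ fixSet α K').Nonempty ↔ (B ∩ fixSet β K').Nonempty := by
        intro K'
        rw [← Set.ncard_pos (Set.toFinite _), ← Set.ncard_pos (Set.toFinite _), hm K']
      obtain ⟨y, hyB, hyK⟩ := (hpos K).mp ⟨x, hxA, hxK⟩
      have hsx : stab α x = K := by
        have hle : K ≤ stab α x := fun k hk => hxK k hk
        have hcard : Nat.card (stab α x) ≤ Nat.card K := hKmax _ ⟨x, hxA, fun k hk => hk⟩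
        exact (Subgroup.eq_of_le_of_card_ge hle hcard).symm
      have hsy : stab β y = K := by
        have hle : K ≤ stab β y := fun k hk => hyK k hk
        have hne' : (A ∩ fixSet α (stab β y)).Nonempty := (hpos _).mpr ⟨y, hyB, fun k hk => hk⟩
        exact (Subgroup.eq_of_le_of_card_ge hle (hKmax _ hne')).symm
      have hkey : ∀ h h' : H, α h x = α h' x ↔ β h y = β h' y := by
        intro h h'
        rw [apply_eq_iff, apply_eq_iff, hsx, hsy]
      obtain ⟨Ox, hOx⟩ : ∃ Ox : Set X, Ox = Set.range (fun h => α h x) := ⟨_, rfl⟩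
      obtain ⟨Oy, hOy⟩ : ∃ Oy : Set Y, Oy = Set.range (fun h => β h y) := ⟨_, rfl⟩
      obtain ⟨f₀, hf₀⟩ : ∃ f₀ : X → Y, ∀ h, f₀ (α h x) = β h y := by
        refine ⟨fun z => if hz : ∃ h, α h x = z then β hz.choose y else Classical.arbitrary Y, ?_⟩
        intro h
        have hz : ∃ h', α h' x = α h x := ⟨h, rfl⟩
        simp only [dif_pos hz]
        exact (hkey _ _).mp hz.choose_spec
      have hxOx : x ∈ Ox := by
        rw [hOx]
        exact ⟨1, by simp⟩
      have hOxA : Ox ⊆ A := by
        rw [hOx]
        rintro _ ⟨h, rfl⟩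
        exact hAinv h x hxA
      have hOyB : Oy ⊆ B := by
        rw [hOy]
        rintro _ ⟨h, rfl⟩
        exact hBinv h y hyB
      have hlt' : (A \ Ox).ncard < n := by
        have h1 : (A \ Ox).ncard < A.ncard := by
          apply Set.ncard_lt_ncard _ (Set.toFinite A)
          refine ⟨Set.diff_subset, ?_⟩
          intro hsub
          exact (hsub hxA).2 hxOx
        omega
      have hA'inv : ∀ h, ∀ z ∈ A \ Ox, α h z ∈ A \ Ox := by
        rintro h z ⟨hzA, hzO⟩
        refine ⟨hAinv h z hzA, ?_⟩
        rw [hOx]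
        rintro ⟨h', hh'⟩
        apply hzO
        rw [hOx]
        refine ⟨h⁻¹ * h', ?_⟩
        show α (h⁻¹ * h') x = z
        have hh'' : α h' x = α h z := hh'
        rw [map_mul, Equiv.Perm.mul_apply, hh'', map_inv]
        simp
      have hB'inv : ∀ h, ∀ z ∈ B \ Oy, β h z ∈ B \ Oy := by
        rintro h z ⟨hzB, hzO⟩
        refine ⟨hBinv h z hzB, ?_⟩
        rw [hOy]
        rintro ⟨h', hh'⟩
        apply hzO
        rw [hOy]
        refine ⟨h⁻¹ * h', ?_⟩
        show β (h⁻¹ * h') y = z
        have hh'' : β h' y = β h z := hh'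
        rw [map_mul, Equiv.Perm.mul_apply, hh'', map_inv]
        simp
      have hm' : ∀ L : Subgroup H,
          ((A \ Ox) ∩ fixSet α L).ncard = ((B \ Oy) ∩ fixSet β L).ncard := by
        intro L
        have h1 : (A ∩ fixSet α L).ncard =
            (Ox ∩ fixSet α L).ncard + ((A \ Ox) ∩ fixSet α L).ncard := by
          rw [← Set.ncard_union_eq _ (Set.toFinite _) (Set.toFinite _)]
          · congr 1
            ext z
            constructor
            · rintro ⟨hzA, hzL⟩
              by_cases hzO : z ∈ Ox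
              · exact Or.inl ⟨hzO, hzL⟩
              · exact Or.inr ⟨⟨hzA, hzO⟩, hzL⟩
            · rintro (⟨hzO, hzL⟩ | ⟨⟨hzA, -⟩, hzL⟩)
              · exact ⟨hOxA hzO, hzL⟩
              · exact ⟨hzA, hzL⟩
          · rw [Set.disjoint_left]
            rintro z ⟨hzO, -⟩ ⟨⟨-, hzO'⟩, -⟩
            exact hzO' hzO
        have h2 : (B ∩ fixSet β L).ncard =
            (Oy ∩ fixSet β L).ncard + ((B \ Oy) ∩ fixSet β L).ncard := by
          rw [← Set.ncard_union_eq _ (Set.toFinite _) (Set.toFinite _)]
          · congr 1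
            ext z
            constructor
            · rintro ⟨hzA, hzL⟩
              by_cases hzO : z ∈ Oy
              · exact Or.inl ⟨hzO, hzL⟩
              · exact Or.inr ⟨⟨hzA, hzO⟩, hzL⟩
            · rintro (⟨hzO, hzL⟩ | ⟨⟨hzA, -⟩, hzL⟩)
              · exact ⟨hOyB hzO, hzL⟩
              · exact ⟨hzA, hzL⟩
          · rw [Set.disjoint_left]
            rintro z ⟨hzO, -⟩ ⟨⟨-, hzO'⟩, -⟩
            exact hzO' hzO
        have h3 : (Ox ∩ fixSet α L).ncard = (Oy ∩ fixSet β L).ncard := by
          apply Set.ncard_congr (fun z _ => f₀ z)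
          · rintro z ⟨hzO, hfix⟩
            rw [hOx] at hzO
            obtain ⟨h, rfl⟩ := hzO
            refine ⟨by rw [hOy]; exact ⟨h, (hf₀ h).symm⟩, ?_⟩
            intro l hl
            have h4 : α (l * h) x = α h x := by
              rw [map_mul, Equiv.Perm.mul_apply]
              exact hfix l hl
            rw [hf₀, ← Equiv.Perm.mul_apply, ← map_mul]
            exact (hkey _ _).mp h4
          · rintro z z' ⟨hzO, -⟩ ⟨hzO', -⟩ heq
            rw [hOx] at hzO hzO'
            obtain ⟨h, rfl⟩ := hzO
            obtain ⟨h', rfl⟩ := hzO'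
            rw [hf₀, hf₀] at heq
            exact (hkey h h').mpr heq
          · rintro w ⟨hwO, hfix⟩
            rw [hOy] at hwO
            obtain ⟨h, rfl⟩ := hwO
            refine ⟨α h x, ⟨by rw [hOx]; exact ⟨h, rfl⟩, ?_⟩, hf₀ h⟩
            intro l hl
            have h4 : β (l * h) y = β h y := by
              rw [map_mul, Equiv.Perm.mul_apply]
              exact hfix l hl
            rw [← Equiv.Perm.mul_apply, ← map_mul]
            exact (hkey _ _).mpr h4
        have h5 := hm L
        omega
      obtain ⟨f', hf'bij, hf'eq⟩ := ih (A \ Ox) (B \ Oy) hlt' hA'inv hB'inv hm'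
      have hf₀O : ∀ z ∈ Ox, f₀ z ∈ Oy := by
        intro z hz
        rw [hOx] at hz
        obtain ⟨h, rfl⟩ := hz
        rw [hOy]
        exact ⟨h, (hf₀ h).symm⟩
      refine ⟨fun z => if z ∈ Ox then f₀ z else f' z, ⟨?_, ?_, ?_⟩, ?_⟩
      · intro z hzA
        by_cases hzO : z ∈ Ox
        · simp only [if_pos hzO]
          exact hOyB (hf₀O z hzO)
        · simp only [if_neg hzO]
          exact (hf'bij.mapsTo ⟨hzA, hzO⟩).1
      · intro z hzA z' hz'A heq
        by_cases hzO : z ∈ Ox
        · by_cases hz'O : z' ∈ Ox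
          · simp only [if_pos hzO, if_pos hz'O] at heq
            rw [hOx] at hzO hz'O
            obtain ⟨h, rfl⟩ := hzO
            obtain ⟨h', rfl⟩ := hz'O
            rw [hf₀, hf₀] at heq
            exact (hkey h h').mpr heq
          · simp only [if_pos hzO, if_neg hz'O] at heq
            exfalso
            have h1 := hf₀O z hzO
            have h2 := (hf'bij.mapsTo ⟨hz'A, hz'O⟩).2
            rw [heq] at h1
            exact h2 h1
        · by_cases hz'O : z' ∈ Ox
          · simp only [if_neg hzO, if_pos hz'O] at heq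
            exfalso
            have h1 := hf₀O z' hz'O
            have h2 := (hf'bij.mapsTo ⟨hzA, hzO⟩).2
            rw [← heq] at h1
            exact h2 h1
          · simp only [if_neg hzO, if_neg hz'O] at heq
            exact hf'bij.injOn ⟨hzA, hzO⟩ ⟨hz'A, hz'O⟩ heq
      · intro w hwB
        by_cases hwO : w ∈ Oy
        · rw [hOy] at hwO
          obtain ⟨h, rfl⟩ := hwO
          have hmem : α h x ∈ Ox := by rw [hOx]; exact ⟨h, rfl⟩
          refine ⟨α h x, hOxA hmem, ?_⟩
          simp only [if_pos hmem]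
          exact hf₀ h
        · obtain ⟨z, ⟨hzA, hzO⟩, hzw⟩ := hf'bij.surjOn ⟨hwB, hwO⟩
          refine ⟨z, hzA, ?_⟩
          simp only [if_neg hzO]
          exact hzw
      · intro h z hzA
        by_cases hzO : z ∈ Ox
        · have hmem : α h z ∈ Ox := by
            rw [hOx] at hzO ⊢
            obtain ⟨h', rfl⟩ := hzO
            refine ⟨h * h', ?_⟩
            show α (h * h') x = α h (α h' x)
            rw [map_mul, Equiv.Perm.mul_apply]
          simp only [if_pos hzO, if_pos hmem]
          rw [hOx] at hzO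
          obtain ⟨h', rfl⟩ := hzO
          rw [← Equiv.Perm.mul_apply, ← map_mul, hf₀, hf₀, map_mul, Equiv.Perm.mul_apply]
        · have hmem : α h z ∉ Ox := (hA'inv h z ⟨hzA, hzO⟩).2
          simp only [if_neg hzO, if_neg hmem]
          exact hf'eq h z ⟨hzA, hzO⟩

/-- **Burnside's theorem on marks.** Two permutation representations of a finite group on finite
sets, in which every subgroup has the same number of fixed points, are isomorphic. -/
theorem exists_equiv_of_marks [Finite H] [Finite X] [Finite Y] (α : H →* Equiv.Perm X)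
    (β : H →* Equiv.Perm Y)
    (hm : ∀ K : Subgroup H, (fixSet α K).ncard = (fixSet β K).ncard) :
    ∃ e : X ≃ Y, ∀ h x, e (α h x) = β h (e x) := by
  have hbotα : fixSet α (⊥ : Subgroup H) = Set.univ := by
    ext x
    simp only [fixSet, Set.mem_setOf_eq, Set.mem_univ, iff_true]
    intro k hk
    rw [Subgroup.mem_bot.mp hk]
    simp
  have hbotβ : fixSet β (⊥ : Subgroup H) = Set.univ := by
    ext x
    simp only [fixSet, Set.mem_setOf_eq, Set.mem_univ, iff_true]
    intro k hk
    rw [Subgroup.mem_bot.mp hk]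
    simp
  have hcard : Nat.card X = Nat.card Y := by
    have h0 := hm ⊥
    rw [hbotα, hbotβ, Set.ncard_univ, Set.ncard_univ] at h0
    exact h0
  rcases isEmpty_or_nonempty Y with hY | hY
  · have hX : IsEmpty X := by
      rw [← Finite.card_eq_zero_iff (α := X)] 
      rw [hcard]
      exact Finite.card_eq_zero_iff.mpr hY
    exact ⟨Equiv.equivOfIsEmpty X Y, fun h x => isEmptyElim x⟩
  · obtain ⟨f, hf, hfeq⟩ := marks_aux α β ((Set.univ : Set X).ncard + 1) Set.univ Set.univ
      (Nat.lt_succ_self _) (fun _ _ _ => Set.mem_univ _) (fun _ _ _ => Set.mem_univ _)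
      (fun K => by rw [Set.univ_inter, Set.univ_inter]; exact hm K)
    have hbij : Function.Bijective f := by
      refine ⟨fun a b hab => hf.injOn (Set.mem_univ a) (Set.mem_univ b) hab, fun w => ?_⟩
      obtain ⟨z, -, hz⟩ := hf.surjOn (Set.mem_univ w)
      exact ⟨z, hz⟩
    exact ⟨Equiv.ofBijective f hbij, fun h x => hfeq h x (Set.mem_univ x)⟩

end Cfsg.Agent.Lib.Helper2.Park
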