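import Mathlib
import Cfsg.Agent.Lib.Helper87.Marks

/-!
# A weight function on a family of subgroups with constant upper sums

For a finite group `A` and a family `𝒢` of subgroups, the recursively defined weights `mu 𝒢 E`
satisfy: the sum of the weights of the members of `𝒢` containing a member `D` depends only on the
order of `D`.  The `A`-set with `|E| * mu 𝒢 E` copies of `A ⧸ E` for every `E ∈ 𝒢` then has a
mark function depending only on membership in `𝒢` and the order (for `𝒢` closed under conjugation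
and subgroups).
-/

set_option autoImplicit false

namespace Cfsg.Agent.Lib.Helper2.Park

open Cfsg.Agent.Lib.Helper87

variable {A : Type*} [Group A] [Finite A]

/-- All subgroups, as a finset. -/
noncomputable def allSub (A : Type*) [Group A] [Finite A] : Finset (Subgroup A) :=
  (Set.toFinite (Set.univ : Set (Subgroup A))).toFinset

theorem mem_allSub (E : Subgroup A) : E ∈ allSub A := by
  unfold allSub
  simp

open Classical in
/-- The weights. -/
noncomputable def mu (𝒢 : Set (Subgroup A)) (D : Subgroup A) : ℕ :=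
  1 + ∑ E ∈ ((allSub A).filter
    (fun E : Subgroup A => E ∈ 𝒢 ∧ Nat.card D < Nat.card E ∧ ¬ D ≤ E)).attach, mu 𝒢 E.1
termination_by Nat.card A - Nat.card D
decreasing_by
  have h := (Finset.mem_filter.mp E.2).2.2.1
  have h2 : Nat.card E.1 ≤ Nat.card A := Subgroup.card_le_card_group E.1
  omega

open Classical in
theorem mu_eq (𝒢 : Set (Subgroup A)) (D : Subgroup A) :
    mu 𝒢 D = 1 + ∑ E ∈ (allSub A).filter
      (fun E : Subgroup A => E ∈ 𝒢 ∧ Nat.card D < Nat.card E ∧ ¬ D ≤ E), mu 𝒢 E := by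
  rw [mu, Finset.sum_attach]

theorem mu_pos (𝒢 : Set (Subgroup A)) (D : Subgroup A) : 0 < mu 𝒢 D := by
  rw [mu_eq]
  omega

open Classical in
/-- The common value of the upper sums at subgroups of order `k`. -/
noncomputable def cst (𝒢 : Set (Subgroup A)) (k : ℕ) : ℕ :=
  1 + ∑ E ∈ (allSub A).filter (fun E : Subgroup A => E ∈ 𝒢 ∧ k < Nat.card E), mu 𝒢 E

open Classical in
theorem sum_mu (𝒢 : Set (Subgroup A)) {D : Subgroup A} (hD : D ∈ 𝒢) :
    ∑ E ∈ (allSub A).filter (fun E : Subgroup A => E ∈ 𝒢 ∧ D ≤ E), mu 𝒢 E =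
      cst 𝒢 (Nat.card D) := by
  have h1 : (allSub A).filter (fun E : Subgroup A => E ∈ 𝒢 ∧ D ≤ E) =
      insert D ((allSub A).filter
        (fun E : Subgroup A => E ∈ 𝒢 ∧ Nat.card D < Nat.card E ∧ D ≤ E)) := by
    ext E
    simp only [Finset.mem_filter, Finset.mem_insert, mem_allSub, true_and]
    constructor
    · rintro ⟨hE, hDE⟩
      by_cases hED : E = D
      · exact Or.inl hED
      · refine Or.inr ⟨hE, ?_, hDE⟩
        by_contra hlt
        exact hED (Subgroup.eq_of_le_of_card_ge hDE (not_lt.mp hlt)).symm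
    · rintro (rfl | ⟨hE, -, hDE⟩)
      · exact ⟨hD, le_rfl⟩
      · exact ⟨hE, hDE⟩
  have h2 : D ∉ (allSub A).filter
      (fun E : Subgroup A => E ∈ 𝒢 ∧ Nat.card D < Nat.card E ∧ D ≤ E) := by
    simp
  rw [h1, Finset.sum_insert h2, mu_eq, cst,
    ← Finset.sum_filter_add_sum_filter_not ((allSub A).filter
      (fun E : Subgroup A => E ∈ 𝒢 ∧ Nat.card D < Nat.card E)) (fun E => D ≤ E),
    Finset.filter_filter, Finset.filter_filter]
  have e1 : (allSub A).filter (fun E : Subgroup A => (E ∈ 𝒢 ∧ Nat.card D < Nat.card E) ∧ D ≤ E) =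
      (allSub A).filter (fun E : Subgroup A => E ∈ 𝒢 ∧ Nat.card D < Nat.card E ∧ D ≤ E) := by
    apply Finset.filter_congr
    intro E _
    tauto
  have e2 : (allSub A).filter
      (fun E : Subgroup A => (E ∈ 𝒢 ∧ Nat.card D < Nat.card E) ∧ ¬ D ≤ E) =
      (allSub A).filter (fun E : Subgroup A => E ∈ 𝒢 ∧ Nat.card D < Nat.card E ∧ ¬ D ≤ E) := by
    apply Finset.filter_congr
    intro E _
    tauto
  rw [e1, e2]
  omega

open Classical in
/-- The upper sum vanishes at subgroups contained in no member. -/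
theorem sum_mu_zero (𝒢 : Set (Subgroup A)) {D : Subgroup A} (hD : ∀ E ∈ 𝒢, ¬ D ≤ E) :
    ∑ E ∈ (allSub A).filter (fun E : Subgroup A => E ∈ 𝒢 ∧ D ≤ E), mu 𝒢 E = 0 := by
  have : (allSub A).filter (fun E : Subgroup A => E ∈ 𝒢 ∧ D ≤ E) = ∅ := by
    ext E
    simp only [Finset.mem_filter, mem_allSub, true_and, Finset.notMem_empty, iff_false]
    rintro ⟨hE, hDE⟩
    exact hD E hE hDE
  rw [this, Finset.sum_empty]

open Classical in
/-- The weight of a subgroup: `mu` on the family, zero outside. -/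
noncomputable def wt (𝒢 : Set (Subgroup A)) (E : Subgroup A) : ℕ := if E ∈ 𝒢 then mu 𝒢 E else 0

/-- The index type of the orbits. -/
abbrev Idx (𝒢 : Set (Subgroup A)) : Type _ := Σ E : Subgroup A, Fin (Nat.card E * wt 𝒢 E)

/-- The `A`-set: `|E| * mu 𝒢 E` copies of `A ⧸ E` for every `E ∈ 𝒢`. -/
abbrev PX (𝒢 : Set (Subgroup A)) : Type _ := Σ i : Idx 𝒢, A ⧸ i.1

theorem idx_mem (𝒢 : Set (Subgroup A)) (i : Idx 𝒢) : i.1 ∈ 𝒢 := by
  by_contra h
  have h0 : Nat.card i.1 * wt 𝒢 i.1 = 0 := by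
    unfold wt
    rw [if_neg h, Nat.mul_zero]
  exact (h0 ▸ i.2).elim0

/-- The number of points of `PX 𝒢` fixed by `D`, as a sum of marks. -/
theorem card_fix_PX (𝒢 : Set (Subgroup A)) (D : Subgroup A) :
    Nat.card {x : PX 𝒢 // ∀ d ∈ D, d • x = x} =
      ∑ E ∈ allSub A, Nat.card E * wt 𝒢 E * fp E D := by
  classical
  haveI : Fintype (Subgroup A) := Fintype.ofFinite _
  have e : {x : PX 𝒢 // ∀ d ∈ D, d • x = x} ≃
      Σ i : Idx 𝒢, MulAction.fixedPoints D (A ⧸ i.1) :=
    { toFun := fun x => ⟨x.1.1, ⟨x.1.2, by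
        intro d
        have h := x.2 (d : A) d.2
        have h2 : (d : A) • (⟨x.1.1, x.1.2⟩ : PX 𝒢) = ⟨x.1.1, x.1.2⟩ := h
        rw [Sigma.smul_mk] at h2
        exact eq_of_heq (Sigma.mk.inj h2).2⟩⟩
      invFun := fun y => ⟨⟨y.1, y.2.1⟩, by
        intro d hd
        rw [Sigma.smul_mk]
        congr 1
        exact y.2.2 ⟨d, hd⟩⟩
      left_inv := by
        rintro ⟨⟨i, c⟩, h⟩
        rfl
      right_inv := by
        rintro ⟨i, ⟨c, h⟩⟩
        rfl }
  rw [Nat.card_congr e, Nat.card_sigma, Fintype.sum_sigma]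
  have h1 : ∀ E : Subgroup A, ∑ j : Fin (Nat.card E * wt 𝒢 E),
      Nat.card (MulAction.fixedPoints D (A ⧸ (⟨E, j⟩ : Idx 𝒢).1)) =
      Nat.card E * wt 𝒢 E * fp E D := by
    intro E
    show ∑ _j : Fin (Nat.card E * wt 𝒢 E), Nat.card (MulAction.fixedPoints D (A ⧸ E)) = _
    rw [Finset.sum_const, Finset.card_univ, Fintype.card_fin, smul_eq_mul]
    rfl
  rw [Finset.sum_congr rfl (fun E _ => h1 E)]
  apply Finset.sum_congr
  · ext E
    simp [mem_allSub]
  · intro E _
    rfl

open Classical in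
/-- The marks of `PX 𝒢`: they depend only on membership in `𝒢` and on the order. -/
theorem marks_PX (𝒢 : Set (Subgroup A)) (hcj : ∀ (g : A) (E : Subgroup A), E ∈ 𝒢 → cj g E ∈ 𝒢)
    (hle : ∀ D E : Subgroup A, E ∈ 𝒢 → D ≤ E → D ∈ 𝒢) (D : Subgroup A) :
    Nat.card {x : PX 𝒢 // ∀ d ∈ D, d • x = x} =
      if D ∈ 𝒢 then Nat.card A * cst 𝒢 (Nat.card D) else 0 := by
  haveI : Fintype A := Fintype.ofFinite _
  rw [card_fix_PX]
  -- rewrite each term as a sum over the group
  have h1 : ∀ E : Subgroup A, Nat.card E * wt 𝒢 E * fp E D =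
      ∑ g : A, if (E ∈ 𝒢 ∧ cj g⁻¹ D ≤ E) then mu 𝒢 E else 0 := by
    intro E
    have h2 : Nat.card E * fp E D = ∑ g : A, if cj g⁻¹ D ≤ E then 1 else 0 := by
      rw [card_mul_fp, Nat.card_eq_fintype_card, Fintype.card_subtype, Finset.card_filter]
      apply Finset.sum_congr rfl
      intro g _
      have : (∀ d ∈ D, g⁻¹ * d * g ∈ E) ↔ cj g⁻¹ D ≤ E := by
        constructor
        · intro h y hy
          have hy' := mem_cj.mp hy
          rw [inv_inv] at hy'
          have h3 := h _ hy'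
          have e3 : g⁻¹ * (g * y * g⁻¹) * g = y := by group
          rw [e3] at h3
          exact h3
        · intro h d hd
          apply h
          rw [mem_cj, inv_inv]
          have e3 : g * (g⁻¹ * d * g) * g⁻¹ = d := by group
          rw [e3]
          exact hd
      simp only [this]
    by_cases hE : E ∈ 𝒢
    · have : Nat.card E * wt 𝒢 E * fp E D = mu 𝒢 E * (Nat.card E * fp E D) := by
        unfold wt
        rw [if_pos hE]
        ring
      rw [this, h2, Finset.mul_sum]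
      apply Finset.sum_congr rfl
      intro g _
      by_cases hg : cj g⁻¹ D ≤ E
      · rw [if_pos hg, if_pos ⟨hE, hg⟩, mul_one]
      · rw [if_neg hg, if_neg (fun h => hg h.2), mul_zero]
    · have : Nat.card E * wt 𝒢 E * fp E D = 0 := by
        unfold wt
        rw [if_neg hE]
        ring
      rw [this]
      symm
      apply Finset.sum_eq_zero
      intro g _
      rw [if_neg (fun h => hE h.1)]
  rw [Finset.sum_congr rfl (fun E _ => h1 E), Finset.sum_comm]
  have h3 : ∀ g : A, ∑ E ∈ allSub A, (if (E ∈ 𝒢 ∧ cj g⁻¹ D ≤ E) then mu 𝒢 E else 0) =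
      if D ∈ 𝒢 then cst 𝒢 (Nat.card D) else 0 := by
    intro g
    rw [← Finset.sum_filter]
    by_cases hD : D ∈ 𝒢
    · rw [if_pos hD, sum_mu 𝒢 (hcj g⁻¹ D hD), card_cj]
    · rw [if_neg hD]
      apply sum_mu_zero
      intro E hE hDE
      apply hD
      have := hcj g _ (hle _ E hE hDE)
      rw [← cj_inv_cj g⁻¹ D, inv_inv]
      exact this
  rw [Finset.sum_congr rfl (fun g _ => h3 g), Finset.sum_const, Finset.card_univ, smul_eq_mul,
    Nat.card_eq_fintype_card]
  split_ifs <;> simp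

end Cfsg.Agent.Lib.Helper2.Park
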