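import Cfsg.Agent.Lib.Helper2.ParkA
import Cfsg.Agent.Lib.Helper2.ParkB
import Cfsg.Agent.Lib.Helper87.GraphSub

/-!
# Every fusion system is realized inside a finite group (Park)

For a fusion system `F` over a finite group `S` (no saturation needed), the `S × S`-set `X` built
from the graphs of the maps of `F`, with the weights of `ParkB`, has the same marks for the two
actions of `P × S` given by the inclusion of `P` and by a map `φ : P → S` of `F`.  By Burnside's
theorem on marks the two actions are isomorphic, so `φ` is induced by conjugation in the group of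
permutations of `X` commuting with the right action of `S`; conversely an isomorphism of these
actions moves the base point to a point whose stabilizer is a graph of a map of `F`, which
forces `φ` to be a map of `F`.
-/

set_option autoImplicit false

namespace Cfsg.Agent.Lib.Helper2.Park

open Cfsg Cfsg.FusionSystem Cfsg.Agent.Lib.Helper90 Cfsg.Agent.Lib.Helper87

universe u

variable {Ω : Type u} [Group Ω] {S : Subgroup Ω} [Finite S] (F : FusionSystem S)

/-- The family of graphs of maps of the system. -/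
def gset : Set (Subgroup (↥S × ↥S)) := {E | IsG F E}

theorem gset_cj (g : ↥S × ↥S) (E : Subgroup (↥S × ↥S)) (hE : E ∈ gset F) : cj g E ∈ gset F :=
  (relG_cj g hE).2.1

theorem gset_le (D E : Subgroup (↥S × ↥S)) (hE : E ∈ gset F) (hDE : D ≤ E) : D ∈ gset F :=
  isG_of_le hE hDE

/-- The action of `S × S` on the set `PX (gset F)`, as a permutation representation. -/
noncomputable def actF : (↥S × ↥S) →* Equiv.Perm (PX (gset F)) :=
  MulAction.toPermHom (↥S × ↥S) (PX (gset F))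

theorem actF_apply (a : ↥S × ↥S) (x : PX (gset F)) : actF F a x = a • x := rfl

/-- The group of permutations commuting with the right action of `S`. -/
noncomputable def GpF : Subgroup (Equiv.Perm (PX (gset F))) :=
  Subgroup.centralizer (Set.range (fun t : ↥S => actF F (1, t)))

theorem mem_GpF (e : Equiv.Perm (PX (gset F))) :
    e ∈ GpF F ↔ ∀ t : ↥S, actF F (1, t) * e = e * actF F (1, t) := by
  unfold GpF
  rw [Subgroup.mem_centralizer_iff]
  constructor
  · intro h t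
    exact h _ ⟨t, rfl⟩
  · rintro h _ ⟨t, rfl⟩
    exact h t

/-- The embedding of `S` by the left action. -/
noncomputable def iotaF : ↥S →* ↥(GpF F) :=
  ((actF F).comp (MonoidHom.inl ↥S ↥S)).codRestrict (GpF F) (by
    intro s
    rw [mem_GpF]
    intro t
    show actF F (1, t) * actF F (s, 1) = actF F (s, 1) * actF F (1, t)
    rw [← map_mul, ← map_mul]
    congr 1
    ext <;> simp)

theorem iotaF_coe (s : ↥S) : ((iotaF F s : ↥(GpF F)) : Equiv.Perm (PX (gset F))) =
    actF F (s, 1) := rfl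

/-- Fixing a point, in terms of a representative. -/
theorem smul_mk_eq_iff (𝒢 : Set (Subgroup (↥S × ↥S))) (i : Idx 𝒢) (a d : ↥S × ↥S) :
    d • (⟨i, ((a : ↥S × ↥S) : (↥S × ↥S) ⧸ i.1)⟩ : PX 𝒢) = ⟨i, ((a : ↥S × ↥S) : (↥S × ↥S) ⧸ i.1)⟩ ↔
      a⁻¹ * d * a ∈ i.1 := by
  rw [Sigma.smul_mk]
  constructor
  · intro h
    have h1 : d • ((a : ↥S × ↥S) : (↥S × ↥S) ⧸ i.1) = ((a : ↥S × ↥S) : (↥S × ↥S) ⧸ i.1) :=
      eq_of_heq (Sigma.mk.inj h).2
    have h2 : ((d * a : ↥S × ↥S) : (↥S × ↥S) ⧸ i.1) = ((a : ↥S × ↥S) : (↥S × ↥S) ⧸ i.1) := h1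
    rw [QuotientGroup.eq] at h2
    have h3 := i.1.inv_mem h2
    have e : ((d * a)⁻¹ * a)⁻¹ = a⁻¹ * d * a := by group
    rw [e] at h3
    exact h3
  · intro h
    congr 1
    show ((d * a : ↥S × ↥S) : (↥S × ↥S) ⧸ i.1) = ((a : ↥S × ↥S) : (↥S × ↥S) ⧸ i.1)
    rw [QuotientGroup.eq]
    have h3 := i.1.inv_mem h
    have e : (a⁻¹ * d * a)⁻¹ = (d * a)⁻¹ * a := by group
    rw [e] at h3
    exact h3

/-- The elements fixing a point lie in a graph of a map of the system. -/
theorem exists_isG_of_fix (x : PX (gset F)) :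
    ∃ E' : Subgroup (↥S × ↥S), IsG F E' ∧ ∀ d : ↥S × ↥S, d • x = x → d ∈ E' := by
  obtain ⟨i, c⟩ := x
  induction c using QuotientGroup.induction_on with
  | H a =>
    refine ⟨cj a i.1, gset_cj F a i.1 (idx_mem _ i), fun d hd => ?_⟩
    exact mem_cj.mpr ((smul_mk_eq_iff (gset F) i a d).mp hd)

/-- A base point whose stabilizer is the diagonal. -/
theorem exists_base : ∃ x₀ : PX (gset F), ∀ d : ↥S × ↥S, d • x₀ = x₀ ↔ d.1 = d.2 := by
  have hid : Mor F S id := mor_id F le_rfl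
  have hmem : gr S S id ∈ gset F := ⟨S, id, hid, rfl⟩
  have hpos : 0 < Nat.card (gr S S id) * wt (gset F) (gr S S id) := by
    apply Nat.mul_pos Nat.card_pos
    unfold wt
    rw [if_pos hmem]
    exact mu_pos _ _
  refine ⟨⟨⟨gr S S id, ⟨0, hpos⟩⟩, ((1 : ↥S × ↥S) : (↥S × ↥S) ⧸ gr S S id)⟩, fun d => ?_⟩
  rw [smul_mk_eq_iff (gset F) ⟨gr S S id, ⟨0, hpos⟩⟩ 1 d]
  have e : (1 : ↥S × ↥S)⁻¹ * d * 1 = d := by group
  rw [e]
  show d ∈ gr S S id ↔ _
  rw [mem_gr hid]
  constructor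
  · rintro ⟨-, h⟩
    exact Subtype.ext h
  · intro h
    exact ⟨d.1.2, congrArg Subtype.val h⟩

theorem iotaF_injective : Function.Injective (iotaF F) := by
  rw [injective_iff_map_eq_one]
  intro s hs
  obtain ⟨x₀, hx₀⟩ := exists_base F
  have h1 : actF F (s, 1) = 1 := by
    rw [← iotaF_coe, hs]
    rfl
  have h2 : ((s, 1) : ↥S × ↥S) • x₀ = x₀ := by
    rw [← actF_apply, h1]
    rfl
  exact (hx₀ _).mp h2

open Classical in
/-- The fixed points of a subgroup under a pulled-back action. -/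
theorem ncard_fixSet_comp {H : Type*} [Group H] (f : H →* (↥S × ↥S)) (K : Subgroup H) :
    (fixSet ((actF F).comp f) K).ncard =
      if K.map f ∈ gset F then Nat.card (↥S × ↥S) * cst (gset F) (Nat.card (K.map f)) else 0 := by
  rw [← marks_PX (gset F) (gset_cj F) (gset_le F) (K.map f), ← Nat.card_coe_set_eq]
  apply Nat.card_congr
  apply Equiv.subtypeEquivRight
  intro x
  constructor
  · rintro h d ⟨k, hk, rfl⟩
    exact h k hk
  · intro h k hk
    exact h (f k) ⟨k, hk, rfl⟩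

variable {F}

/-- Transport of graphs along a map of the system in the first coordinate. -/
theorem map_mem_gset_iff {P : Subgroup Ω} (hP : P ≤ S) (φ : P →* Ω) (hφ : ∀ x : P, φ x ∈ S)
    (h : φ ∈ F.Hom P) (K : Subgroup (↥P × ↥S)) :
    K.map (MonoidHom.prodMap (Subgroup.inclusion hP) (MonoidHom.id ↥S)) ∈ gset F ↔
      K.map (MonoidHom.prodMap (φ.codRestrict S hφ) (MonoidHom.id ↥S)) ∈ gset F := by
  have hm : Mor F P (extFun P φ) := mor_of_hom h
  have hid : Mor F S id := mor_id F le_rfl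
  constructor
  · intro hG
    refine (isG_prod_map hm hid ?_ ?_ hG).1
    · rintro x ⟨k, -, rfl⟩
      exact ⟨k.1.2, k.2.2⟩
    · intro z
      constructor
      · rintro ⟨k, hk, rfl⟩
        refine ⟨_, ⟨k, hk, rfl⟩, ?_, rfl⟩
        show φ k.1 = extFun P φ (k.1 : Ω)
        rw [extFun_apply]
      · rintro ⟨x, ⟨k, hk, rfl⟩, h1, h2⟩
        refine ⟨k, hk, ?_⟩
        apply Prod.ext
        · apply Subtype.ext
          rw [h1]
          show φ k.1 = extFun P φ (k.1 : Ω)
          rw [extFun_apply]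
        · apply Subtype.ext
          rw [h2]
          rfl
  · intro hG
    refine (isG_prod_map hm.inv hid ?_ ?_ hG).1
    · rintro x ⟨k, -, rfl⟩
      refine ⟨?_, k.2.2⟩
      show φ k.1 ∈ img P (extFun P φ)
      rw [← extFun_apply P φ k.1]
      exact hm.mem_img_of_mem k.1.2
    · intro z
      constructor
      · rintro ⟨k, hk, rfl⟩
        refine ⟨_, ⟨k, hk, rfl⟩, ?_, rfl⟩
        show (k.1 : Ω) = invFn P (extFun P φ) (φ k.1)
        rw [← extFun_apply P φ k.1, hm.invFn_apply k.1.2]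
      · rintro ⟨x, ⟨k, hk, rfl⟩, h1, h2⟩
        refine ⟨k, hk, ?_⟩
        apply Prod.ext
        · apply Subtype.ext
          rw [h1]
          show (k.1 : Ω) = invFn P (extFun P φ) (φ k.1)
          rw [← extFun_apply P φ k.1, hm.invFn_apply k.1.2]
        · apply Subtype.ext
          rw [h2]
          rfl

/-- A map of the system is induced by conjugation. -/
theorem exists_conj_of_hom {P : Subgroup Ω} (hP : P ≤ S) (φ : P →* Ω) (hφ : ∀ x : P, φ x ∈ S)
    (h : φ ∈ F.Hom P) :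
    ∃ g : ↥(GpF F), ∀ x : P, iotaF F ⟨φ x, hφ x⟩ = g * iotaF F ⟨x, hP x.2⟩ * g⁻¹ := by
  haveI : Finite ↥P := finite_of_le hP
  have hinj1 : Function.Injective
      (MonoidHom.prodMap (Subgroup.inclusion hP) (MonoidHom.id ↥S)) := by
    intro a b hab
    have h1 := congrArg Prod.fst hab
    have h2 := congrArg Prod.snd hab
    exact Prod.ext (Subgroup.inclusion_injective hP h1) h2
  have hinj2 : Function.Injective
      (MonoidHom.prodMap (φ.codRestrict S hφ) (MonoidHom.id ↥S)) := by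
    intro a b hab
    have h1 := congrArg Prod.fst hab
    have h2 := congrArg Prod.snd hab
    refine Prod.ext (F.injective_of_mem h ?_) h2
    exact congrArg Subtype.val h1
  obtain ⟨e, he⟩ := exists_equiv_of_marks
    ((actF F).comp (MonoidHom.prodMap (Subgroup.inclusion hP) (MonoidHom.id ↥S)))
    ((actF F).comp (MonoidHom.prodMap (φ.codRestrict S hφ) (MonoidHom.id ↥S)))
    (fun K => by
      rw [ncard_fixSet_comp, ncard_fixSet_comp, Subgroup.card_map_of_injective hinj1,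
        Subgroup.card_map_of_injective hinj2]
      by_cases hK : K.map (MonoidHom.prodMap (Subgroup.inclusion hP) (MonoidHom.id ↥S)) ∈ gset F
      · rw [if_pos hK, if_pos ((map_mem_gset_iff hP φ hφ h K).mp hK)]
      · rw [if_neg hK, if_neg (fun h' => hK ((map_mem_gset_iff hP φ hφ h K).mpr h'))])
  have heG : e ∈ GpF F := by
    rw [mem_GpF]
    intro t
    refine Equiv.ext (fun x => ?_)
    have h1 := he (1, t) x
    have hf1 : (MonoidHom.prodMap (Subgroup.inclusion hP) (MonoidHom.id ↥S)) (1, t) = (1, t) :=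
      Prod.ext (map_one (Subgroup.inclusion hP)) rfl
    have hf2 : (MonoidHom.prodMap (φ.codRestrict S hφ) (MonoidHom.id ↥S)) (1, t) = (1, t) :=
      Prod.ext (map_one (φ.codRestrict S hφ)) rfl
    simp only [MonoidHom.comp_apply] at h1
    rw [hf1, hf2] at h1
    exact h1.symm
  refine ⟨⟨e, heG⟩, fun x => ?_⟩
  apply Subtype.ext
  show actF F (⟨φ x, hφ x⟩, 1) = e * actF F (⟨x, hP x.2⟩, 1) * e⁻¹
  rw [eq_mul_inv_iff_mul_eq]
  refine Equiv.ext (fun y => ?_)
  have h1 := he (x, 1) y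
  exact h1.symm

/-- A homomorphism induced by conjugation is a map of the system. -/
theorem hom_of_conj {P : Subgroup Ω} (hP : P ≤ S) (φ : P →* Ω) (hφ : ∀ x : P, φ x ∈ S)
    (g : ↥(GpF F)) (hg : ∀ x : P, iotaF F ⟨φ x, hφ x⟩ = g * iotaF F ⟨x, hP x.2⟩ * g⁻¹) :
    φ ∈ F.Hom P := by
  obtain ⟨x₀, hx₀⟩ := exists_base F
  obtain ⟨E', hE', hfix⟩ := exists_isG_of_fix F ((g : Equiv.Perm (PX (gset F))) x₀)
  have hgc := (mem_GpF F _).mp g.2
  -- the pairs `(φ q, q)` fix the point `g x₀`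
  have hmem : ∀ q : P, ((⟨φ q, hφ q⟩, ⟨q, hP q.2⟩) : ↥S × ↥S) ∈ E' := by
    intro q
    apply hfix
    have h1 : actF F (⟨φ q, hφ q⟩, 1) =
        (g : Equiv.Perm (PX (gset F))) * actF F (⟨q, hP q.2⟩, 1) *
          (g : Equiv.Perm (PX (gset F)))⁻¹ := congrArg Subtype.val (hg q)
    have h2 : ((⟨q, hP q.2⟩, 1) : ↥S × ↥S) • x₀ = ((1, (⟨q, hP q.2⟩ : ↥S)⁻¹) : ↥S × ↥S) • x₀ := by
      have h3 : ((⟨q, hP q.2⟩, ⟨q, hP q.2⟩) : ↥S × ↥S) • x₀ = x₀ := (hx₀ _).mpr rfl
      have h4 : ((⟨q, hP q.2⟩, 1) : ↥S × ↥S) =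
          ((1, (⟨q, hP q.2⟩ : ↥S)⁻¹) : ↥S × ↥S) * (⟨q, hP q.2⟩, ⟨q, hP q.2⟩) := by
        ext <;> simp
      rw [h4, mul_smul, h3]
    have h5 : ((⟨φ q, hφ q⟩, 1) : ↥S × ↥S) • ((g : Equiv.Perm (PX (gset F))) x₀) =
        ((1, (⟨q, hP q.2⟩ : ↥S)⁻¹) : ↥S × ↥S) • ((g : Equiv.Perm (PX (gset F))) x₀) := by
      rw [← actF_apply, h1]
      show (g : Equiv.Perm (PX (gset F))) (actF F (⟨q, hP q.2⟩, 1)
        ((g : Equiv.Perm (PX (gset F)))⁻¹ ((g : Equiv.Perm (PX (gset F))) x₀))) = _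
      have h9 : (g : Equiv.Perm (PX (gset F)))⁻¹ ((g : Equiv.Perm (PX (gset F))) x₀) = x₀ := by
        simp
      rw [h9, actF_apply, h2, ← actF_apply, ← actF_apply,
        ← Equiv.Perm.mul_apply, ← hgc, Equiv.Perm.mul_apply]
    have h6 : ((⟨φ q, hφ q⟩, ⟨q, hP q.2⟩) : ↥S × ↥S) =
        ((1, (⟨q, hP q.2⟩ : ↥S)) : ↥S × ↥S) * (⟨φ q, hφ q⟩, 1) := by
      ext <;> simp
    rw [h6, mul_smul, h5, ← mul_smul]
    have h7 : ((1, (⟨q, hP q.2⟩ : ↥S)) : ↥S × ↥S) * (1, (⟨q, hP q.2⟩ : ↥S)⁻¹) = 1 := by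
      ext <;> simp
    rw [h7, one_smul]
  obtain ⟨P', f', hf', rfl⟩ := hE'
  have hq : ∀ q : P, (φ q : Ω) ∈ P' ∧ f' (φ q) = q := fun q => (mem_gr hf').mp (hmem q)
  have hRle : φ.range ≤ P' := by
    rintro _ ⟨q, rfl⟩
    exact (hq q).1
  have hR : Mor F φ.range f' := hf'.restrict hRle
  have himg : img φ.range f' = P := by
    ext y
    rw [hR.mem_img]
    constructor
    · rintro ⟨x, ⟨q, rfl⟩, rfl⟩
      rw [(hq q).2]
      exact q.2
    · intro hy
      exact ⟨φ ⟨y, hy⟩, ⟨⟨y, hy⟩, rfl⟩, (hq ⟨y, hy⟩).2⟩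
  have hinv : Mor F P (invFn φ.range f') :=
    Eq.subst (motive := fun Q => Mor F Q (invFn φ.range f')) himg hR.inv
  refine hinv.hom φ (fun x => ?_)
  have h8 := hR.invFn_apply (x := φ x) ⟨x, rfl⟩
  rw [(hq x).2] at h8
  exact h8.symm

variable (F)

/-- **Park's theorem**: every fusion system over a finite group is realized inside a finite
group. -/
theorem park : ∃ (G : Type u) (_ : Group G) (_ : Finite G) (ι : ↥S →* G), F.IsRealizedBy ι :=
  ⟨↥(GpF F), inferInstance, inferInstance, iotaF F, iotaF_injective F,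
    fun P hP φ hφ => ⟨fun h => exists_conj_of_hom hP φ hφ h,
      fun ⟨g, hg⟩ => hom_of_conj hP φ hφ g hg⟩⟩

end Cfsg.Agent.Lib.Helper2.Park
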