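import Mathlib
import Cfsg.Agent.S0904
import Cfsg.Agent.Lib.Helper23.Syl
import Cfsg.Agent.Lib.Helper23.Syl2
import Cfsg.Agent.Lib.Helper76.SylPrime
import Cfsg.Agent.Lib.Helper76.N22Count
import Cfsg.Agent.Lib.Helper2.S496NS756B

/-!
# S0496, piece NS756A: an element of two Sylow `3`-subgroups in a simple group of order 756
-/

set_option autoImplicit false

namespace Cfsg.Agent.S496

open Subgroup Cfsg.Agent.Lib.Helper23

/-- the Sylow `3`-subgroups have order `27` -/
theorem ns756a_card27 {G : Type*} [Group G] [Finite G] (h : Nat.card G = 756) (R : Sylow 3 G) :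
    Nat.card (R : Subgroup G) = 27 := by
  haveI : Fact (Nat.Prime 3) := ⟨by norm_num⟩
  have := sylow_card_of_eq (p := 3) (k := 3) (m := 28) (by rw [h]; norm_num) (by norm_num) R
  rw [this]; norm_num

/-- the Sylow `3`-subgroups are self-normalizing -/
theorem ns756a_normalizer {G : Type*} [Group G] [Finite G] [IsSimpleGroup G]
    (h : Nat.card G = 756) (R : Sylow 3 G) :
    normalizer ((R : Subgroup G) : Set G) = (R : Subgroup G) := by
  haveI : Fact (Nat.Prime 3) := ⟨by norm_num⟩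
  have h1 := card_normalizer_sylow_mul R
  rw [ns756b_card_sylow3 h, h] at h1
  have h2 : Nat.card (normalizer ((R : Subgroup G) : Set G)) = 27 := by omega
  symm
  apply eq_of_le_of_card_ge le_normalizer
  rw [h2, ns756a_card27 h R]

/-- an intersection of order `9` is normalized by both Sylow subgroups -/
theorem ns756a_le_normalizer_inf {G : Type*} [Group G] [Finite G] (h : Nat.card G = 756)
    (R R' : Sylow 3 G)
    (h9 : Nat.card ((R : Subgroup G) ⊓ (R' : Subgroup G) : Subgroup G) = 9) :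
    (R : Subgroup G) ≤
      normalizer ((((R : Subgroup G) ⊓ (R' : Subgroup G) : Subgroup G)) : Set G) := by
  have h1 := card_inf_mul_index_subgroupOf (R : Subgroup G) (R' : Subgroup G)
  rw [h9, ns756a_card27 h R] at h1
  have h2 : ((R' : Subgroup G).subgroupOf (R : Subgroup G)).index = 3 := by omega
  have h3 : ((R' : Subgroup G).subgroupOf (R : Subgroup G)).Normal := by
    apply normal_of_index_eq_minFac_card
    rw [h2, ns756a_card27 h R]
    norm_num
  rw [← inf_subgroupOf_left] at h3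
  exact (normal_subgroupOf_iff_le_normalizer inf_le_left).mp h3

/-- distinct Sylow `3`-subgroups meet in order at most `3` -/
theorem ns756a_inter_le {G : Type*} [Group G] [Finite G] [IsSimpleGroup G]
    (h : Nat.card G = 756) (R R' : Sylow 3 G) (hne : R ≠ R') :
    Nat.card ((R : Subgroup G) ⊓ (R' : Subgroup G) : Subgroup G) ≤ 3 := by
  haveI : Fact (Nat.Prime 3) := ⟨by norm_num⟩
  have hG : ¬ IsMulCommutative G := not_comm_of_simple_of_not_prime (by rw [h]; norm_num)
  have hR := ns756a_card27 h R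
  have hR' := ns756a_card27 h R'
  have hdvd : Nat.card ((R : Subgroup G) ⊓ (R' : Subgroup G) : Subgroup G) ∣ 27 := by
    rw [← hR]; exact card_dvd_of_le inf_le_left
  have hne27 : Nat.card ((R : Subgroup G) ⊓ (R' : Subgroup G) : Subgroup G) ≠ 27 := by
    intro h27
    have h1 : ((R : Subgroup G) ⊓ (R' : Subgroup G) : Subgroup G) = (R : Subgroup G) :=
      eq_of_le_of_card_ge inf_le_left (by rw [h27, hR])
    have h2 : (R : Subgroup G) ≤ (R' : Subgroup G) := by rw [← h1]; exact inf_le_right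
    have h3 : (R : Subgroup G) = (R' : Subgroup G) := eq_of_le_of_card_ge h2 (by rw [hR, hR'])
    exact hne (Sylow.ext h3)
  by_contra hcon
  have h9 : Nat.card ((R : Subgroup G) ⊓ (R' : Subgroup G) : Subgroup G) = 9 := by
    obtain ⟨n, hn⟩ : ∃ n, n = Nat.card ((R : Subgroup G) ⊓ (R' : Subgroup G) : Subgroup G) :=
      ⟨_, rfl⟩
    rw [← hn] at hdvd hne27 hcon ⊢
    have hle : n ≤ 27 := Nat.le_of_dvd (by norm_num) hdvd
    interval_cases n <;> omega
  have hRN := ns756a_le_normalizer_inf h R R' h9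
  have hR'N : (R' : Subgroup G) ≤
      normalizer ((((R : Subgroup G) ⊓ (R' : Subgroup G) : Subgroup G)) : Set G) := by
    have h9' : Nat.card ((R' : Subgroup G) ⊓ (R : Subgroup G) : Subgroup G) = 9 := by
      rw [inf_comm]; exact h9
    have := ns756a_le_normalizer_inf h R' R h9'
    rwa [inf_comm (R' : Subgroup G) (R : Subgroup G)] at this
  obtain ⟨E, hE⟩ : ∃ E : Subgroup G, E = (R : Subgroup G) ⊓ (R' : Subgroup G) := ⟨_, rfl⟩
  rw [← hE] at hRN hR'N h9
  obtain ⟨j, hj, hjdvd, hmod, hlt⟩ :=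
    card_sylow_subgroup_facts (normalizer (E : Set G)) R R' hRN hR'N hne
  rw [hR] at hj
  have hidx := (normalizer (E : Set G)).card_mul_index
  rw [hj, h] at hidx
  have hj0 : 0 < j := by
    rcases Nat.eq_zero_or_pos j with h0 | h0
    · rw [h0] at hidx; omega
    · exact h0
  have hnle := Nat.le_of_dvd hj0 hjdvd
  have hE1 : E ≠ ⊥ := by
    intro hb
    rw [hb, card_bot] at h9
    omega
  have hE2 : E ≠ ⊤ := by
    intro ht
    rw [ht, card_top, h] at h9
    omega
  have hNtop := simple_normalizer_ne_top E hE1 hE2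
  have hfac := simple_two_mul_card_dvd_factorial hG _ hNtop
  rw [h] at hfac
  have hidx1 : (normalizer (E : Set G)).index ≠ 1 := fun h1 => hNtop (index_eq_one.mp h1)
  obtain ⟨i, hi⟩ : ∃ i, i = (normalizer (E : Set G)).index := ⟨_, rfl⟩
  rw [← hi] at hidx hfac hidx1
  obtain ⟨n', hn'⟩ : ∃ n', n' = Nat.card (Sylow 3 (normalizer (E : Set G))) := ⟨_, rfl⟩
  rw [← hn'] at hnle hmod hlt
  have hile : i ≤ 28 := by nlinarith
  interval_cases i <;> first | omega | (exfalso; revert hfac; decide)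

/-- the centralizer of an element of a Sylow `3`-subgroup `R` meets `R` in order `9` or `27` -/
theorem ns756a_cent_card {G : Type*} [Group G] [Finite G] (h : Nat.card G = 756)
    (R : Sylow 3 G) (x : G) (hxR : x ∈ (R : Subgroup G)) :
    Nat.card ((R : Subgroup G) ⊓ centralizer ({x} : Set G) : Subgroup G) = 9 ∨
    Nat.card ((R : Subgroup G) ⊓ centralizer ({x} : Set G) : Subgroup G) = 27 := by
  haveI : Fact (Nat.Prime 3) := ⟨by norm_num⟩
  have hR := ns756a_card27 h R
  obtain ⟨K, hK⟩ : ∃ K : Subgroup G, K = (R : Subgroup G) ⊓ centralizer ({x} : Set G) :=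
    ⟨_, rfl⟩
  rw [← hK]
  have hKR : K ≤ (R : Subgroup G) := by rw [hK]; exact inf_le_left
  have hdvd : Nat.card K ∣ 27 := by rw [← hR]; exact card_dvd_of_le hKR
  haveI : Nontrivial (R : Subgroup G) := by
    rw [← Finite.one_lt_card_iff_nontrivial, hR]; norm_num
  haveI := IsPGroup.center_nontrivial (R.isPGroup')
  obtain ⟨z, hz⟩ := exists_ne (1 : center (R : Subgroup G))
  have hzc : ∀ r : (R : Subgroup G), r * (z : (R : Subgroup G)) = (z : (R : Subgroup G)) * r :=
    fun r => mem_center_iff.mp z.2 r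
  obtain ⟨Z, hZ⟩ : ∃ Z : Subgroup G,
      Z = centralizer ((R : Subgroup G) : Set G) ⊓ (R : Subgroup G) := ⟨_, rfl⟩
  have hwZ : ((z : (R : Subgroup G)) : G) ∈ Z := by
    rw [hZ, mem_inf]
    refine ⟨?_, (z : (R : Subgroup G)).2⟩
    rw [mem_centralizer_iff]
    intro g hg
    exact congrArg Subtype.val (hzc ⟨g, hg⟩)
  have hw1 : ((z : (R : Subgroup G)) : G) ≠ 1 := by
    intro h1
    apply hz
    apply Subtype.ext
    apply Subtype.ext
    exact h1
  have hZK : Z ≤ K := by
    intro g hg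
    rw [hZ, mem_inf] at hg
    rw [hK, mem_inf]
    refine ⟨hg.2, ?_⟩
    rw [mem_centralizer_iff]
    intro y hy
    rw [Set.mem_singleton_iff] at hy
    rw [hy]
    exact mem_centralizer_iff.mp hg.1 x hxR
  have hZ1 : Nat.card Z ≠ 1 := by
    intro h1
    have := eq_bot_of_card_eq Z h1
    rw [this, mem_bot] at hwZ
    exact hw1 hwZ
  have hxK : x ∈ K := by
    rw [hK, mem_inf]
    refine ⟨hxR, ?_⟩
    rw [mem_centralizer_iff]
    intro y hy
    rw [Set.mem_singleton_iff] at hy
    rw [hy]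
  have hK1 : Nat.card K ≠ 1 := by
    intro h1
    have hb := eq_bot_of_card_eq K h1
    rw [hb] at hZK
    have : Z = ⊥ := le_bot_iff.mp hZK
    rw [this, mem_bot] at hwZ
    exact hw1 hwZ
  have hK3 : Nat.card K ≠ 3 := by
    intro h3
    have hZd : Nat.card Z ∣ 3 := by rw [← h3]; exact card_dvd_of_le hZK
    have hZ3 : Nat.card Z = 3 := by
      rcases (Nat.dvd_prime (by norm_num : Nat.Prime 3)).mp hZd with h1 | h1
      · exact absurd h1 hZ1
      · exact h1
    have hZeq : Z = K := eq_of_le_of_card_ge hZK (by rw [h3, hZ3])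
    have hxZ : x ∈ Z := by rw [hZeq]; exact hxK
    rw [hZ, mem_inf] at hxZ
    have hRK : (R : Subgroup G) ≤ K := by
      intro r hr
      rw [hK, mem_inf]
      refine ⟨hr, ?_⟩
      rw [mem_centralizer_iff]
      intro y hy
      rw [Set.mem_singleton_iff] at hy
      rw [hy]
      exact (mem_centralizer_iff.mp hxZ.1 r hr).symm
    have := card_le_of_le hRK
    rw [h3, hR] at this
    omega
  obtain ⟨n, hn⟩ : ∃ n, n = Nat.card K := ⟨_, rfl⟩
  rw [← hn] at hdvd hK1 hK3 ⊢
  have hle : n ≤ 27 := Nat.le_of_dvd (by norm_num) hdvd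
  interval_cases n <;> omega

/-- the centralizer of `x` is transitive on the Sylow `3`-subgroups containing `x` -/
theorem ns756a_orbit {G : Type*} [Group G] [Finite G] [IsSimpleGroup G] (h : Nat.card G = 756)
    (x : G) (P : Sylow 3 G) (hxP : x ∈ (P : Subgroup G)) :
    {R : Sylow 3 G | x ∈ (R : Subgroup G)}.ncard % 3 = 1 ∧
    Nat.card (centralizer ({x} : Set G)) = {R : Sylow 3 G | x ∈ (R : Subgroup G)}.ncard *
      Nat.card ((P : Subgroup G) ⊓ centralizer ({x} : Set G) : Subgroup G) := by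
  haveI : Fact (Nat.Prime 3) := ⟨by norm_num⟩
  obtain ⟨C, hC⟩ : ∃ C : Subgroup G, C = centralizer ({x} : Set G) := ⟨_, rfl⟩
  obtain ⟨F, hF⟩ : ∃ F : Set (Sylow 3 G), F = {R : Sylow 3 G | x ∈ (R : Subgroup G)} :=
    ⟨_, rfl⟩
  rw [← hC, ← hF]
  have hFmem : ∀ R : Sylow 3 G, R ∈ F ↔ x ∈ (R : Subgroup G) := fun R => by rw [hF]; rfl
  have hcomm : ∀ c ∈ C, c * x = x * c := by
    intro c hc
    rw [hC] at hc
    exact (mem_centralizer_iff.mp hc x rfl).symm
  have hCF : ∀ c ∈ C, ∀ R ∈ F, c • R ∈ F := by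
    intro c hc R hR
    rw [hFmem] at hR ⊢
    rw [Sylow.coe_subgroup_smul]
    have : x = MulAut.conj c • x := by
      rw [MulAut.smul_def, MulAut.conj_apply, hcomm c hc, mul_inv_cancel_right]
    rw [this]
    exact smul_mem_pointwise_smul _ _ _ hR
  have hsub : MulAction.orbit C P ⊆ F := by
    rintro R ⟨c, rfl⟩
    exact hCF c c.2 P ((hFmem P).mpr hxP)
  have hKfix : ∀ R ∈ F, ∀ δ : Sylow 3 G,
      (∀ k ∈ ((R : Subgroup G) ⊓ C : Subgroup G), k • δ = δ) → δ = R := by
    intro R hR δ hfix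
    rw [hFmem] at hR
    by_contra hne
    have h1 : ((R : Subgroup G) ⊓ C : Subgroup G) ≤ (R : Subgroup G) ⊓ (δ : Subgroup G) := by
      intro k hk
      have hk' := mem_inf.mp hk
      rw [mem_inf]
      refine ⟨hk'.1, ?_⟩
      have : k ∈ normalizer ((δ : Subgroup G) : Set G) :=
        Sylow.smul_eq_iff_mem_normalizer.mp (hfix k hk)
      rw [ns756a_normalizer h δ] at this
      exact this
    have h2 := card_le_of_le h1
    have h3 := ns756a_inter_le h R δ (Ne.symm hne)
    rw [hC] at h2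
    rcases ns756a_cent_card h R x hR with h4 | h4 <;> omega
  have hKself : ∀ R : Sylow 3 G, ∀ k ∈ ((R : Subgroup G) ⊓ C : Subgroup G), k • R = R := by
    intro R k hk
    rw [Sylow.smul_eq_iff_mem_normalizer]
    exact le_normalizer (mem_inf.mp hk).1
  have hinv : ∀ R : Sylow 3 G, ∀ k ∈ ((R : Subgroup G) ⊓ C : Subgroup G),
      ∀ δ ∈ MulAction.orbit C P, k • δ ∈ MulAction.orbit C P := by
    rintro R k hk δ ⟨c, rfl⟩
    refine ⟨⟨k, (mem_inf.mp hk).2⟩ * c, ?_⟩
    show ((k * (c : G)) • P) = k • ((c : G) • P)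
    rw [mul_smul]
  have hmodR : ∀ R : Sylow 3 G, (MulAction.orbit C P).ncard ≡
      {δ | δ ∈ MulAction.orbit C P ∧
        ∀ k ∈ ((R : Subgroup G) ⊓ C : Subgroup G), k • δ = δ}.ncard [MOD 3] := fun R =>
    Cfsg.Agent.Lib.Helper76.N22.card_modEq_fixed 3 ((R : Subgroup G) ⊓ C : Subgroup G)
      (R.isPGroup'.to_le inf_le_left) _ (hinv R)
  have horb1 : (MulAction.orbit C P).ncard % 3 = 1 := by
    have hset : {δ | δ ∈ MulAction.orbit C P ∧
        ∀ k ∈ ((P : Subgroup G) ⊓ C : Subgroup G), k • δ = δ} = {P} := by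
      ext δ
      rw [Set.mem_singleton_iff]
      constructor
      · rintro ⟨-, hfix⟩
        exact hKfix P ((hFmem P).mpr hxP) δ hfix
      · rintro rfl
        exact ⟨MulAction.mem_orbit_self _, hKself _⟩
    have := hmodR P
    rw [hset, Set.ncard_singleton] at this
    unfold Nat.ModEq at this
    omega
  have horb : MulAction.orbit C P = F := by
    apply Set.Subset.antisymm hsub
    intro R hR
    by_contra hRO
    have hset : {δ | δ ∈ MulAction.orbit C P ∧
        ∀ k ∈ ((R : Subgroup G) ⊓ C : Subgroup G), k • δ = δ} = ∅ := by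
      ext δ
      simp only [Set.mem_setOf_eq, Set.mem_empty_iff_false, iff_false]
      rintro ⟨hδ, hfix⟩
      rw [hKfix R hR δ hfix] at hδ
      exact hRO hδ
    have := hmodR R
    rw [hset, Set.ncard_empty] at this
    unfold Nat.ModEq at this
    omega
  refine ⟨by rw [← horb]; exact horb1, ?_⟩
  have h1 := MulAction.index_stabilizer C P
  rw [horb] at h1
  have h2 := Subgroup.card_mul_index (MulAction.stabilizer C P)
  have h3 : Nat.card (MulAction.stabilizer C P) =
      Nat.card ((P : Subgroup G) ⊓ C : Subgroup G) := by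
    have h4 : MulAction.stabilizer C P = (P : Subgroup G).subgroupOf C := by
      ext c
      rw [MulAction.mem_stabilizer_iff, Subgroup.mem_subgroupOf, Subgroup.smul_def,
        Sylow.smul_eq_iff_mem_normalizer]
      show (c : G) ∈ normalizer ((P : Subgroup G) : Set G) ↔ _
      rw [ns756a_normalizer h P]
    rw [h4, ← Subgroup.inf_subgroupOf_left, inf_comm (P : Subgroup G) C]
    exact Nat.card_congr (Subgroup.subgroupOfEquivOfLe inf_le_left).toEquiv
  rw [h1, h3] at h2
  rw [← h2, mul_comm]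

theorem bad_756 {G : Type*} [Group G] [Finite G] [IsSimpleGroup G] (h : Nat.card G = 756)
    (x : G) (hx : x ≠ 1) (P Q : Sylow 3 G) (hPQ : P ≠ Q)
    (hxP : x ∈ (P : Subgroup G)) (hxQ : x ∈ (Q : Subgroup G)) :
    {R : Sylow 3 G | x ∈ (R : Subgroup G)}.ncard = 4 ∧
    ∃ V : Subgroup G, Nat.card V = 4 ∧ ∀ v ∈ V, v * x = x * v := by
  haveI : Fact (Nat.Prime 3) := ⟨by norm_num⟩
  haveI : Fact (Nat.Prime 2) := ⟨by norm_num⟩
  haveI : Fact (Nat.Prime 7) := ⟨by norm_num⟩
  have hG : ¬ IsMulCommutative G := not_comm_of_simple_of_not_prime (by rw [h]; norm_num)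
  have hox : orderOf x = 3 := by
    have h1 := ns756a_inter_le h P Q hPQ
    have h2 : orderOf x ∣ Nat.card ((P : Subgroup G) ⊓ (Q : Subgroup G) : Subgroup G) :=
      Subgroup.orderOf_dvd_natCard _ ⟨hxP, hxQ⟩
    have h3 : orderOf x ≠ 1 := fun h1 => hx (orderOf_eq_one_iff.mp h1)
    have h4 : 0 < Nat.card ((P : Subgroup G) ⊓ (Q : Subgroup G) : Subgroup G) := Nat.card_pos
    have h5 := Nat.le_of_dvd h4 h2
    have h6 : orderOf x ∣ 27 := by
      rw [← ns756a_card27 h P]; exact Subgroup.orderOf_dvd_natCard _ hxP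
    obtain ⟨n, hn⟩ : ∃ n, n = orderOf x := ⟨_, rfl⟩
    rw [← hn] at h3 h5 h6 ⊢
    have : n ≤ 3 := by omega
    interval_cases n <;> omega
  obtain ⟨hmod, hcard⟩ := ns756a_orbit h x P hxP
  have hK := ns756a_cent_card h P x hxP
  obtain ⟨C, hC⟩ : ∃ C : Subgroup G, C = centralizer ({x} : Set G) := ⟨_, rfl⟩
  obtain ⟨F, hF⟩ : ∃ F : Set (Sylow 3 G), F = {R : Sylow 3 G | x ∈ (R : Subgroup G)} :=
    ⟨_, rfl⟩
  rw [← hC, ← hF] at hcard
  rw [← hF] at hmod
  rw [← hC] at hK
  rw [← hF]
  have hCmem : ∀ c ∈ C, c * x = x * c := by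
    intro c hc
    rw [hC] at hc
    exact (mem_centralizer_iff.mp hc x rfl).symm
  have hF2 : 2 ≤ F.ncard := by
    rw [← Set.ncard_pair hPQ]
    apply Set.ncard_le_ncard _ (Set.toFinite _)
    intro R hR
    rw [hF]
    rcases hR with rfl | rfl
    · exact hxP
    · exact hxQ
  have h7 : ¬ 7 ∣ Nat.card C := by
    intro h7
    obtain ⟨y, hyC, hy1, hy7⟩ :=
      Cfsg.Agent.Lib.Helper76.SylPrime.exists_mem_pow_eq_one C 7 h7
    have hoy : orderOf y = 7 := orderOf_eq_prime hy7 hy1
    rw [hC] at hyC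
    have hcomm : Commute y x := (mem_centralizer_iff.mp hyC x rfl).symm
    have hna : ∃ a b : G, a * b ≠ b * a := by
      by_contra hcon
      push Not at hcon
      exact hG ⟨⟨hcon⟩⟩
    exact Cfsg.Agent.S0904.no_commuting hna 3 2 7 3 2 (by norm_num) (by norm_num)
      (by rw [h]; norm_num) y x hoy hox hcomm
  have hCdvd : Nat.card C ∣ 756 := by rw [← h]; exact Subgroup.card_subgroup_dvd_card C
  have hF4 : F.ncard = 4 := by
    obtain ⟨f, hf⟩ : ∃ f, f = F.ncard := ⟨_, rfl⟩
    rw [← hf] at hmod hcard hF2 ⊢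
    rw [hcard] at h7 hCdvd
    rcases hK with hK | hK
    · rw [hK] at h7 hCdvd
      have h84 : f ∣ 84 := by
        have : f * 9 ∣ 84 * 9 := hCdvd
        exact Nat.dvd_of_mul_dvd_mul_right (by norm_num) this
      have hle : f ≤ 84 := Nat.le_of_dvd (by norm_num) h84
      interval_cases f <;> omega
    · rw [hK] at h7 hCdvd
      have h28 : f ∣ 28 := by
        have : f * 27 ∣ 28 * 27 := hCdvd
        exact Nat.dvd_of_mul_dvd_mul_right (by norm_num) this
      have hle : f ≤ 28 := Nat.le_of_dvd (by norm_num) h28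
      interval_cases f <;> omega
  refine ⟨hF4, ?_⟩
  have h4C : 2 ^ 2 ∣ Nat.card C := by
    rw [hcard, hF4]
    have h22 : (2 : ℕ) ^ 2 = 4 := by norm_num
    rw [h22]
    exact dvd_mul_right 4 _
  obtain ⟨K, hKc⟩ := Sylow.exists_subgroup_card_pow_prime 2 h4C
  refine ⟨K.map C.subtype, ?_, ?_⟩
  · rw [card_map_of_injective C.subtype_injective, hKc]; norm_num
  · rintro v ⟨k, -, rfl⟩
    exact hCmem k k.2

end Cfsg.Agent.S496
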