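import Mathlib
import Cfsg.Agent.Lib.Helper93.Sl3Defs

set_option autoImplicit false

/-! Piece MATG of the `SL₃(F)` presentation project (S2287, poster helper93):
the two gap relators hold for the matrices. -/

namespace Cfsg.Agent.Lib.Helper93.Sl3

open Polynomial Matrix

section mats

variable {F : Type*} [Field F]

theorem h2_mX_add (a b : F) : mX (a + b) = mX a * mX b := by
  ext i j
  show (mX (a + b)).1 i j = ((mX a).1 * (mX b).1) i j
  rw [mX_val, mX_val, mX_val]
  fin_cases i <;> fin_cases j <;> simp [Matrix.mul_apply, Fin.sum_univ_three, add_comm]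

/-- MATG -/
theorem mat_relsGap (ζ : F) (hζ0 : ζ ≠ 0) (k : ℕ) (hk : ζ ^ k = 1 + ζ)
    (haC : ∀ i : ℕ, Pres.aC (mX (1 : F)) (gC (mH ζ hζ0) (mC F)) i = mX (ζ ^ i)) :
    ∀ r ∈ relsGap k (mX (1 : F)) (mH ζ hζ0) (mC F), r = 1 := by
  intro r hr
  simp only [relsGap, List.mem_cons, List.not_mem_nil, or_false] at hr
  rcases hr with rfl | rfl
  · rw [haC 0, haC 1, pow_zero, pow_one]
    have h1 : mX (1 : F) * mX ζ = mX ζ * mX 1 := by
      rw [← h2_mX_add, ← h2_mX_add, add_comm]
    rw [h1]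
    group
  · rw [haC 0, haC 1, haC k, pow_zero, pow_one, hk, ← h2_mX_add]
    exact inv_mul_cancel _

end mats

end Cfsg.Agent.Lib.Helper93.Sl3
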