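import Mathlib
import Cfsg.Agent.Lib.Helper93.Sl3Defs
import Cfsg.Agent.Lib.Helper2.Sl3MATG

set_option autoImplicit false

/-! Piece MATPW of the `SL₃(F)` presentation project (S2287, poster helper93):
the word `pw f` evaluated on the matrices is `x₁₂(f(ζ))`. -/

namespace Cfsg.Agent.Lib.Helper93.Sl3

open Polynomial Matrix

section mats

variable {F : Type*} [Field F]

theorem h2_mX_zero : mX (0 : F) = 1 := by
  ext i j
  show (mX (0 : F)).1 i j = (1 : Matrix (Fin 3) (Fin 3) F) i j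
  rw [mX_val]
  fin_cases i <;> fin_cases j <;> simp

theorem h2_mX_npow (a : F) (n : ℕ) : mX a ^ n = mX ((n : F) * a) := by
  induction n with
  | zero => rw [pow_zero, Nat.cast_zero, zero_mul, h2_mX_zero]
  | succ n ih =>
    rw [pow_succ, ih, ← h2_mX_add]
    congr 1
    push_cast
    ring

/-- the matrix `diag(1, ζ, ζ⁻¹)` -/
theorem h2_gC_mul (ζ : F) (hζ0 : ζ ≠ 0) (a : F) :
    mX a * gC (mH ζ hζ0) (mC F) = gC (mH ζ hζ0) (mC F) * mX (ζ * a) := by
  have hD : ∃ D : SpecialLinearGroup (Fin 3) F, D.1 = !![1, 0, 0; 0, ζ, 0; 0, 0, ζ⁻¹] :=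
    ⟨⟨!![1, 0, 0; 0, ζ, 0; 0, 0, ζ⁻¹], by simp [det_fin_three, hζ0]⟩, rfl⟩
  obtain ⟨D, hD⟩ := hD
  have hg : gC (mH ζ hζ0) (mC F) = D := by
    unfold gC
    rw [mul_inv_eq_iff_eq_mul, mul_inv_eq_iff_eq_mul]
    ext i j
    show (mC F).1 i j = (D.1 * (mC F).1 * (mH ζ hζ0).1) i j
    rw [hD, mC_val, mH_val]
    fin_cases i <;> fin_cases j <;> simp [Matrix.mul_apply, Fin.sum_univ_three, hζ0]
  rw [hg]
  ext i j
  show ((mX a).1 * D.1) i j = (D.1 * (mX (ζ * a)).1) i j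
  rw [hD, mX_val, mX_val]
  fin_cases i <;> fin_cases j <;> simp [Matrix.mul_apply, Fin.sum_univ_three, mul_comm]

theorem h2_aC_mat (ζ : F) (hζ0 : ζ ≠ 0) (i : ℕ) :
    Pres.aC (mX (1 : F)) (gC (mH ζ hζ0) (mC F)) i = mX (ζ ^ i) := by
  induction i with
  | zero => rw [Pres.aC_zero, pow_zero]
  | succ i ih =>
    rw [Pres.aC_succ, ih, mul_assoc, h2_gC_mul, ← mul_assoc, inv_mul_cancel, one_mul, pow_succ,
      mul_comm]

/-- MATPW -/
theorem mat_pw (p : ℕ) [Fact p.Prime] [Algebra (ZMod p) F] (ζ : F) (hζ0 : ζ ≠ 0)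
    (f : (ZMod p)[X]) :
    Pres.pw p (mX (1 : F)) (gC (mH ζ hζ0) (mC F)) f = mX (aeval ζ f) := by
  have key : ∀ n : ℕ,
      ((List.range n).map
        (fun i => Pres.aC (mX (1 : F)) (gC (mH ζ hζ0) (mC F)) i ^ (f.coeff i).val)).prod
        = mX (∑ i ∈ Finset.range n, (f.coeff i) • ζ ^ i) := by
    intro n
    induction n with
    | zero => simp [h2_mX_zero]
    | succ n ih =>
      rw [List.range_succ, List.map_append, List.prod_append, ih, Finset.sum_range_succ]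
      simp only [List.map_cons, List.map_nil, List.prod_cons, List.prod_nil, mul_one]
      rw [h2_aC_mat, h2_mX_npow, ← h2_mX_add]
      congr 2
      rw [Algebra.smul_def]
      congr 1
      conv_rhs => rw [← ZMod.natCast_zmod_val (f.coeff n)]
      rw [map_natCast]
  rw [Pres.pw, key, aeval_eq_sum_range]

end mats

end Cfsg.Agent.Lib.Helper93.Sl3
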