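import Mathlib
import Cfsg.Agent.Lib.Helper93.Sl3Defs
import Cfsg.Agent.Lib.Helper47.SLGen
import Cfsg.Agent.Lib.Helper2.Sl3MATPW

set_option autoImplicit false

/-! Piece MATGEN of the `SL₃(F)` presentation project (S2287, poster helper93):
the four matrices generate `SL₃(F)`. -/

namespace Cfsg.Agent.Lib.Helper93.Sl3

open Polynomial Matrix

section mats

variable {F : Type*} [Field F]

theorem h2_cycMat_two : Cfsg.Agent.Lib.Helper47.cycMat F 2 = !![0, 1, 0; 0, 0, 1; 1, 0, 0] := by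
  ext i j
  fin_cases i <;> fin_cases j <;> simp [Cfsg.Agent.Lib.Helper47.cycMat]

theorem h2_transvection_eq (hij : (0 : Fin 3) ≠ 1) (a : F) :
    Matrix.SpecialLinearGroup.transvection hij a = mX a := by
  ext i j
  show (Matrix.SpecialLinearGroup.transvection hij a).1 i j = (mX a).1 i j
  rw [Matrix.SpecialLinearGroup.transvection_coe, mX_val]
  fin_cases i <;> fin_cases j <;> simp [Matrix.single_apply, Matrix.one_apply]

/-- MATGEN -/
theorem mat_gen (ζ : F) (hζ0 : ζ ≠ 0) (hζ : ∀ a : F, a ≠ 0 → ∃ j : ℕ, a = ζ ^ j) :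
    Subgroup.closure {mX (1 : F), mH ζ hζ0, mT F, mC F} = ⊤ := by
  obtain ⟨H, hH⟩ : ∃ H : Subgroup (SpecialLinearGroup (Fin 3) F),
      H = Subgroup.closure {mX (1 : F), mH ζ hζ0, mT F, mC F} := ⟨_, rfl⟩
  rw [← hH]
  have hu : mX (1 : F) ∈ H := by
    rw [hH]
    exact Subgroup.subset_closure (by simp)
  have hh : mH ζ hζ0 ∈ H := by
    rw [hH]
    exact Subgroup.subset_closure (by simp)
  have hc : mC F ∈ H := by
    rw [hH]
    exact Subgroup.subset_closure (by simp)
  have hg : gC (mH ζ hζ0) (mC F) ∈ H := by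
    unfold gC
    exact mul_mem (mul_mem hc (inv_mem hh)) (inv_mem hc)
  have hx : ∀ a : F, mX a ∈ H := by
    intro a
    by_cases ha : a = 0
    · rw [ha, h2_mX_zero]
      exact one_mem H
    · obtain ⟨j, rfl⟩ := hζ a ha
      rw [← h2_aC_mat ζ hζ0 j]
      unfold Pres.aC
      exact mul_mem (mul_mem (pow_mem (inv_mem hg) j) hu) (pow_mem hg j)
  obtain ⟨w, hw⟩ : ∃ w : SpecialLinearGroup (Fin 3) F,
      w.1 = Cfsg.Agent.Lib.Helper47.cycMat F 2 :=
    ⟨⟨Cfsg.Agent.Lib.Helper47.cycMat F 2, by rw [h2_cycMat_two]; simp [det_fin_three]⟩, rfl⟩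
  have hwc : w * mC F = 1 := by
    ext i j
    show (w.1 * (mC F).1) i j = (1 : Matrix (Fin 3) (Fin 3) F) i j
    rw [hw, h2_cycMat_two, mC_val]
    fin_cases i <;> fin_cases j <;> simp [Matrix.mul_apply, Fin.sum_univ_three]
  have hwH : w ∈ H := by
    have e : w = (mC F)⁻¹ := eq_inv_of_mul_eq_one_left hwc
    rw [e]
    exact inv_mem hc
  exact Cfsg.Agent.Lib.Helper47.eq_top_of_cyc (n := 2) (by norm_num) H w hw hwH
    (fun a hij => by
      rw [h2_transvection_eq hij a]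
      exact hx a)

end mats

end Cfsg.Agent.Lib.Helper93.Sl3
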