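import Mathlib
import Cfsg.Agent.Lib.Helper49.Sp4Base

set_option autoImplicit false

/-! Piece F2 of S2460 (helper2 for helper49): `(G + G⁻¹)² = c1 (G + G⁻¹) - c0` in `Sp₄(F)`. -/

namespace Cfsg.Agent.Lib.Helper2.Sp4T

open Cfsg.Agent.Lib.Helper49.Sp4T Matrix

variable {F : Type*} [Field F]

/-- PIECE F2 -/
theorem sp4_quadratic (G : Sp4 F) :
    ∃ c1 c0 : F, ((G : M4 F) + ((G⁻¹ : Sp4 F) : M4 F)) * ((G : M4 F) + ((G⁻¹ : Sp4 F) : M4 F)) =
      c1 • ((G : M4 F) + ((G⁻¹ : Sp4 F) : M4 F)) - c0 • (1 : M4 F) := by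
  obtain ⟨A, hA⟩ : ∃ A : M4 F, A = (G : M4 F) := ⟨_, rfl⟩
  obtain ⟨B, hB⟩ : ∃ B : M4 F, B = ((G⁻¹ : Sp4 F) : M4 F) := ⟨_, rfl⟩
  rw [← hA, ← hB]
  have hAB : A * B = 1 := by
    rw [hA, hB]
    exact congrArg Subtype.val (mul_inv_cancel G)
  have hBA : B * A = 1 := by
    rw [hA, hB]
    exact congrArg Subtype.val (inv_mul_cancel G)
  have hdet : A.det = 1 := by rw [hA]; exact SymplecticGroup.det_eq_one G.2
  have hBinv : B = A⁻¹ := by rw [hA, hB]; exact SymplecticGroup.coe_inv' G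
  have hunit : IsUnit A := (Matrix.isUnit_iff_isUnit_det A).2 (by rw [hdet]; exact isUnit_one)
  have hχB : B.charpoly = A.charpoly := by
    have h1 : B = (-J (Fin 2) F) * Aᵀ * J (Fin 2) F := by
      rw [hA, hB]; exact SymplecticGroup.coe_inv G
    have hJ : IsUnit (J (Fin 2) F) :=
      (Matrix.isUnit_iff_isUnit_det _).2 (isUnit_det_J (Fin 2) F)
    obtain ⟨Ju, hJu⟩ := hJ
    have h2 := Matrix.charpoly_units_conj' Ju Aᵀ
    rw [hJu, J_inv] at h2
    rw [h1, h2, Matrix.charpoly_transpose]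
  have hrev : A.charpoly.reverse = A.charpoly := by
    have h1 := Matrix.charpoly_inv A hunit
    rw [← hBinv, hχB, hdet, ← Matrix.reverse_charpoly] at h1
    have hc : Fintype.card (Fin 2 ⊕ Fin 2) = 4 := by simp
    rw [hc, Ring.inverse_one] at h1
    have h2 : ((-1 : Polynomial F)) ^ 4 * Polynomial.C (1 : F) = 1 := by
      rw [Polynomial.C_1]; norm_num
    rw [h2, one_mul] at h1
    exact h1.symm
  have hnd : A.charpoly.natDegree = 4 := by
    rw [Matrix.charpoly_natDegree_eq_dim]; simp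
  have hp4 : A.charpoly.coeff 4 = 1 := by
    have := (Matrix.charpoly_monic A).coeff_natDegree
    rwa [hnd] at this
  have hp0 : A.charpoly.coeff 0 = 1 := by
    have h1 := Polynomial.coeff_reverse A.charpoly 0
    rw [hrev, hnd, Polynomial.revAt_le (by norm_num)] at h1
    rw [h1]; exact hp4
  have hp13 : A.charpoly.coeff 3 = A.charpoly.coeff 1 := by
    have h1 := Polynomial.coeff_reverse A.charpoly 3
    rw [hrev, hnd, Polynomial.revAt_le (by norm_num)] at h1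
    exact h1
  have hCH := Matrix.aeval_self_charpoly A
  rw [Polynomial.aeval_eq_sum_range, hnd] at hCH
  simp only [Finset.sum_range_succ, Finset.sum_range_zero, zero_add, hp0, hp4, hp13, pow_zero,
    pow_one, one_smul] at hCH
  obtain ⟨p1, hp1⟩ : ∃ p1 : F, p1 = A.charpoly.coeff 1 := ⟨_, rfl⟩
  obtain ⟨p2, hp2⟩ : ∃ p2 : F, p2 = A.charpoly.coeff 2 := ⟨_, rfl⟩
  rw [← hp1, ← hp2] at hCH
  -- hCH : 1 + p1 • A + p2 • A ^ 2 + p1 • A ^ 3 + A ^ 4 = 0
  have e1 : B * B * A = B := by rw [mul_assoc, hBA, mul_one]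
  have e2 : B * B * A ^ 2 = 1 := by rw [pow_two, ← mul_assoc, e1, hBA]
  have e3 : B * B * A ^ 3 = A := by rw [pow_succ, ← mul_assoc, e2, one_mul]
  have e4 : B * B * A ^ 4 = A ^ 2 := by rw [pow_succ, ← mul_assoc, e3, ← pow_two]
  have h1 : B * B + p1 • B + p2 • (1 : M4 F) + p1 • A + A ^ 2 = 0 := by
    have := congrArg (fun M : M4 F => B * B * M) hCH
    simp only [mul_add, Matrix.mul_smul, mul_one, mul_zero, e1, e2, e3, e4] at this
    exact this
  refine ⟨-p1, p2 - 2, ?_⟩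
  have key : (A + B) * (A + B) = A ^ 2 + B * B + (2 : F) • (1 : M4 F) := by
    rw [add_mul, mul_add, mul_add, hAB, hBA, pow_two, two_smul]; abel
  have h2 : A ^ 2 + B * B = -(p1 • B + p2 • (1 : M4 F) + p1 • A) := by
    rw [eq_neg_iff_add_eq_zero, ← h1]; abel
  rw [key, h2, smul_add, neg_smul, neg_smul, sub_smul]
  abel

end Cfsg.Agent.Lib.Helper2.Sp4T
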